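import Cfsg.Agent.H901.Sl.JJ
import Cfsg.Agent.H577.GLB.Fam
import Cfsg.Agent.H623.GLn.Cop
import Cfsg.Agent.H623.GLn.Sec
import Cfsg.Agent.H76.GLB.Orbit
import Cfsg.Agent.H666.Clif.GL
import Cfsg.Agent.H577.GLB.Exc
import Cfsg.Agent.H941.GLn.GB5
import Cfsg.Agent.H614.GLn.GB1
import Cfsg.Agent.H76.GLB.ProdBlk
import Cfsg.Agent.H699.IBrGen
import Cfsg.Agent.H597.BrInv
import Cfsg.Agent.H614.GLn.LabHom
import Cfsg.Agent.H505.S4536.DC.Deg
import Cfsg.Agent.H157.GLB.DG
import Cfsg.Agent.H120.GLB.Ctx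
import Cfsg.Agent.H699.EqDeg
import Cfsg.Agent.S0188
import Cfsg.Agent.H577.GLB.Clif
import Cfsg.Agent.H112.Clif.Brauer
import Cfsg.Agent.H657.PRational
import Cfsg.Agent.H666.Clif.Desc
import Cfsg.Agent.H112.GLB.Abs
import Cfsg.Agent.H505.S4536.DC.Main
import Cfsg.Agent.H112.GLB.Main
import Cfsg.Agent.H76.GLB.DE2
set_option linter.all false

-- part: H139/P5GL/Frame
section
/-!
# S4536, P5GL: the parabolic subgroup `GL_a × GL_b ⋉ Hom(F^b, F^a)` of `GL_n(F)`

* `uhom e` : the unipotent radical, parametrized by `Hom(F^b, F^a)`; `Ur e` its range;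
* `card_Ur`, `conj_mem_Ur`, `disjoint_Ur`, `Ur_le`, `sup_slS` : its properties;
* `hcRes_Om` : Harish-Chandra restriction is the coproduct of the standard model.
-/

set_option autoImplicit false
set_option linter.unusedSectionVars false

open Cfsg Polynomial
open scoped MatrixGroups TensorProduct

namespace Cfsg.Agent.H139.P5GL

open Cfsg.Agent.H624.Sl Cfsg.Agent.H577.GLB Cfsg.Agent.H577.GLB.Real Cfsg.Agent.H577.GLB.Std
open Cfsg.Agent.H901.Sl (ext_mulVec jj_injective det_jj)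
open Cfsg.Agent.H623.GLn (evT Dl blk avg avg_equiv shear shear_apply blk_apply)
open Cfsg.Agent.H614.GLn (Fam)

universe u w

variable {F : Type u} [Field F] [Finite F] {a b n : ℕ} (e : ((Fin a → F) × (Fin b → F)) ≃ₗ[F] (Fin n → F))

/-- the shear as an element of `GL_n(F)` -/
noncomputable def uu (t : (Fin b → F) →ₗ[F] (Fin a → F)) : GL (Fin n) F :=
  (glE F n).symm ((e.symm.trans (shear t)).trans e)

theorem uu_mulVec (t : (Fin b → F) →ₗ[F] (Fin a → F)) (v : Fin a → F) (w : Fin b → F) :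
    (uu e t).1.mulVec (e (v, w)) = e (v + t w, w) := by
  rw [← glE_apply, uu, MulEquiv.apply_symm_apply]
  change e (shear t (e.symm (e (v, w)))) = _
  rw [e.symm_apply_apply, shear_apply]

theorem ext_e {g h : GL (Fin n) F} (H : ∀ (v : Fin a → F) (w : Fin b → F),
    g.1.mulVec (e (v, w)) = h.1.mulVec (e (v, w))) : g = h := by
  refine ext_mulVec fun x => ?_
  obtain ⟨⟨v, w⟩, rfl⟩ := e.surjective x
  exact H v w

theorem mul_mulVec (g h : GL (Fin n) F) (x : Fin n → F) : (g * h).1.mulVec x = g.1.mulVec (h.1.mulVec x) := by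
  rw [Units.val_mul, Matrix.mulVec_mulVec]

theorem uu_add (t t' : (Fin b → F) →ₗ[F] (Fin a → F)) : uu e (t + t') = uu e t * uu e t' := by
  refine ext_e e fun v w => ?_
  rw [mul_mulVec, uu_mulVec, uu_mulVec, uu_mulVec, LinearMap.add_apply]
  congr 2
  abel

/-- the unipotent radical as a homomorphism -/
noncomputable def uhom : Multiplicative ((Fin b → F) →ₗ[F] (Fin a → F)) →* GL (Fin n) F :=
  MonoidHom.mk' (fun t => uu e t.toAdd) fun t t' => uu_add e t.toAdd t'.toAdd

theorem uhom_apply (t : (Fin b → F) →ₗ[F] (Fin a → F)) : uhom e (Multiplicative.ofAdd t) = uu e t := rfl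

theorem uu_injective : Function.Injective (uu e) := by
  intro t t' h
  refine LinearMap.ext fun w => ?_
  have h1 := uu_mulVec e t 0 w
  rw [h, uu_mulVec] at h1
  have h2 := congrArg Prod.fst (e.injective h1)
  simpa using h2.symm

/-- the unipotent radical -/
noncomputable def Ur : Subgroup (GL (Fin n) F) := (uhom e).range

theorem uu_mem (t : (Fin b → F) →ₗ[F] (Fin a → F)) : uu e t ∈ Ur e := ⟨Multiplicative.ofAdd t, rfl⟩

theorem mem_Ur {g : GL (Fin n) F} : g ∈ Ur e ↔ ∃ t, uu e t = g :=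
  ⟨fun ⟨t, ht⟩ => ⟨t.toAdd, ht⟩, fun ⟨t, ht⟩ => ht ▸ uu_mem e t⟩

/-- the parametrization of the unipotent radical -/
noncomputable def urE : ((Fin b → F) →ₗ[F] (Fin a → F)) ≃ Ur e :=
  Equiv.ofBijective (fun t => ⟨uu e t, uu_mem e t⟩)
    ⟨fun _ _ h => uu_injective e (congrArg Subtype.val h), fun ⟨_, h⟩ => by
      obtain ⟨t, rfl⟩ := (mem_Ur e).1 h
      exact ⟨t, rfl⟩⟩

theorem urE_coe (t : (Fin b → F) →ₗ[F] (Fin a → F)) : (urE e t : GL (Fin n) F) = uu e t := rfl

theorem card_Ur {p : ℕ} (hp : p.Prime) (hpF : p ≠ ringChar F) : (Nat.card (Ur e)).Coprime p := by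
  have hr : (ringChar F).Prime := CharP.char_is_prime F _
  have := Fintype.ofFinite F
  obtain ⟨k, -, hk⟩ := FiniteField.card F (ringChar F)
  have h1 : Nat.card (Ur e) = Nat.card ((Fin b → F) →ₗ[F] (Fin a → F)) := (Nat.card_congr (urE e)).symm
  rw [h1, Module.natCard_eq_pow_finrank (K := F), Nat.card_eq_fintype_card, hk, ← pow_mul]
  exact Nat.Coprime.pow_left _ ((Nat.coprime_primes hr hp).2 (Ne.symm hpF))

theorem jj_uu (A : GL (Fin a) F) (B : GL (Fin b) F) (t : (Fin b → F) →ₗ[F] (Fin a → F)) :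
    jj (K := F) e (A, B) * uu e t = uu e (Matrix.toLin' A.1 ∘ₗ t ∘ₗ Matrix.toLin' (B⁻¹).1) * jj (K := F) e (A, B) := by
  refine ext_e e fun v w => ?_
  rw [mul_mulVec, mul_mulVec, uu_mulVec, jj_mulVec, jj_mulVec, uu_mulVec]
  congr 2
  rw [Matrix.mulVec_add]
  congr 1
  simp only [LinearMap.comp_apply, Matrix.toLin'_apply]
  rw [Matrix.mulVec_mulVec, ← Units.val_mul, inv_mul_cancel, Units.val_one, Matrix.one_mulVec]

theorem conj_mem_Ur : ∀ l ∈ (jj (K := F) e).range, ∀ x ∈ Ur e, l * x * l⁻¹ ∈ Ur e := by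
  rintro _ ⟨⟨A, B⟩, rfl⟩ x hx
  obtain ⟨t, rfl⟩ := (mem_Ur e).1 hx
  rw [jj_uu, mul_inv_cancel_right]
  exact uu_mem e _

theorem disjoint_Ur : Disjoint (jj (K := F) e).range (Ur e) := by
  rw [Subgroup.disjoint_def]
  rintro _ ⟨⟨A, B⟩, rfl⟩ hx
  obtain ⟨t, ht⟩ := (mem_Ur e).1 hx
  have h1 : ∀ v w, (v + t w, w) = (A.1.mulVec v, B.1.mulVec w) := by
    intro v w
    apply e.injective
    rw [← uu_mulVec, ht, jj_mulVec]
  have hA : A = 1 := ext_mulVec fun v => by
    have h2 := congrArg Prod.fst (h1 v 0)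
    rw [map_zero, add_zero] at h2
    rw [Units.val_one, Matrix.one_mulVec]
    exact h2.symm
  have hB : B = 1 := ext_mulVec fun w => by
    have h2 := congrArg Prod.snd (h1 0 w)
    rw [Units.val_one, Matrix.one_mulVec]
    exact h2.symm
  rw [hA, hB]
  exact map_one _

theorem Ur_le : Ur e ≤ slS F n := by
  intro x hx
  obtain ⟨t, rfl⟩ := (mem_Ur e).1 hx
  have hr : (ringChar F).Prime := CharP.char_is_prime F _
  have := Fact.mk hr
  have h1 : (uu e t) ^ (ringChar F) = 1 := by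
    rw [← uhom_apply, ← map_pow, ← ofAdd_nsmul]
    have h2 : (ringChar F) • t = 0 := by
      rw [← Nat.cast_smul_eq_nsmul F, CharP.cast_eq_zero, zero_smul]
    rw [h2, ofAdd_zero, map_one]
  have h2 : (Matrix.GeneralLinearGroup.det (uu e t)) ^ (ringChar F) = 1 := by rw [← map_pow, h1, map_one]
  rw [slS, MonoidHom.mem_ker]
  apply Units.ext
  have h3 : ((Matrix.GeneralLinearGroup.det (uu e t) : Fˣ) : F) ^ (ringChar F) = 1 := by
    rw [← Units.val_pow_eq_pow_val, h2, Units.val_one]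
  have h4 : (((Matrix.GeneralLinearGroup.det (uu e t) : Fˣ) : F) - 1) ^ (ringChar F) = 0 := by
    rw [sub_pow_char, h3, one_pow, sub_self]
  exact sub_eq_zero.1 (pow_eq_zero_iff hr.ne_zero |>.1 h4)

theorem nrm_self (y : Fˣ) : nrm F F y = y := by
  apply Units.ext
  change Algebra.norm F (y : F) = y
  rw [Algebra.norm_self]
  rfl

theorem det_jj' (A : GL (Fin a) F) (B : GL (Fin b) F) : Matrix.GeneralLinearGroup.det (jj (K := F) e (A, B)) =
    Matrix.GeneralLinearGroup.det A * Matrix.GeneralLinearGroup.det B := by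
  rw [det_jj, nrm_self]

theorem sup_slS (hb : 0 < b) {N : Subgroup (GL (Fin n) F)} (hN : slS F n ≤ N) : (jj (K := F) e).range ⊔ N = ⊤ := by
  rw [eq_top_iff]
  intro g _
  have : Nonempty (Fin b) := ⟨⟨0, hb⟩⟩
  obtain ⟨B, hB⟩ := Matrix.GeneralLinearGroup.det_surjective (n := Fin b) (Matrix.GeneralLinearGroup.det g)
  have h1 : (jj (K := F) e (1, B))⁻¹ * g ∈ slS F n := by
    rw [slS, MonoidHom.mem_ker, map_mul, map_inv, det_jj', map_one, one_mul, hB, inv_mul_cancel]
  have h2 : g = jj (K := F) e (1, B) * ((jj (K := F) e (1, B))⁻¹ * g) := by rw [mul_inv_cancel_left]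
  rw [h2]
  exact Subgroup.mul_mem_sup ⟨_, rfl⟩ (hN h1)

/-! ### Harish-Chandra restriction -/

variable {K : Type w} [Field K] [Algebra F K] (θ : K →*₀ ℂ) (M : ℕ)

theorem fn_jj_uu (f : Fam F) (A : GL (Fin a) F) (B : GL (Fin b) F) (t : (Fin b → F) →ₗ[F] (Fin a → F)) :
    f.fn (Fin n → F) (Matrix.toLin' (jj (K := F) e (A, B) * uu e t : GL (Fin n) F).1) =
      f.fn ((Fin a → F) × (Fin b → F)) (blk (Matrix.toLin' A.1) (Matrix.toLin' A.1 ∘ₗ t) (Matrix.toLin' B.1)) := by
  refine f.conj' e ?_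
  rintro ⟨v, w⟩
  rw [Matrix.toLin'_apply, mul_mulVec, uu_mulVec, jj_mulVec, blk_apply]
  congr 2
  rw [Matrix.mulVec_add]
  rfl

/-- composition with an automorphism -/
noncomputable def cmpE (A : GL (Fin a) F) : ((Fin b → F) →ₗ[F] (Fin a → F)) ≃ ((Fin b → F) →ₗ[F] (Fin a → F)) where
  toFun t := Matrix.toLin' A.1 ∘ₗ t
  invFun t := Matrix.toLin' (A⁻¹).1 ∘ₗ t
  left_inv t := by
    change Matrix.toLin' (A⁻¹).1 ∘ₗ Matrix.toLin' A.1 ∘ₗ t = t
    rw [← LinearMap.comp_assoc, ← Matrix.toLin'_mul, ← Units.val_mul, inv_mul_cancel, Units.val_one,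
      Matrix.toLin'_one, LinearMap.id_comp]
  right_inv t := by
    change Matrix.toLin' A.1 ∘ₗ Matrix.toLin' (A⁻¹).1 ∘ₗ t = t
    rw [← LinearMap.comp_assoc, ← Matrix.toLin'_mul, ← Units.val_mul, mul_inv_cancel, Units.val_one,
      Matrix.toLin'_one, LinearMap.id_comp]

/-- **Harish-Chandra restriction is the coproduct.** -/
theorem hcRes_Om (x : RS M) (A : GL (Fin a) F) (B : GL (Fin b) F) (h : (jj (K := F) e).range)
    (hh : jj (K := F) e (A, B) = h) :
    hcRes (jj (K := F) e).range (Ur e) (Om (F := F) θ M n x) h =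
      evT θ M (Matrix.toLin' A.1) (Matrix.toLin' B.1) (coP M x) := by
  have h0 := Cfsg.Agent.H623.GLn.Dl_piA θ M (Matrix.toLin' A.1) (Matrix.toLin' B.1) x
  have h1 : evT θ M (Matrix.toLin' A.1) (Matrix.toLin' B.1) (coP M x) =
      Dl (piA (F := F) θ M x) (Matrix.toLin' A.1) (Matrix.toLin' B.1) := h0.symm
  rw [h1, Dl, ← avg_equiv (cmpE A)]
  have h2 : hcRes (jj (K := F) e).range (Ur e) (Om (F := F) θ M n x) h =
      avg (Ur e) fun y => Om (F := F) θ M n x ((h : GL (Fin n) F) * y) := by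
    rw [hcRes, avg, div_eq_inv_mul]
  rw [h2, ← avg_equiv (urE e)]
  congr 1
  funext t
  rw [urE_coe, ← hh]
  exact fn_jj_uu e (piA (F := F) θ M x) A B t

end Cfsg.Agent.H139.P5GL
end

-- part: H139/P5GL/Hg
section
/-!
# S4536, P5GL: the Harish-Chandra restriction of the characters over one orbit

* `Ev_coP` : the coefficient of `X v` in the second factor of the coproduct of `x` is the partial derivative;
* `evT_coP` : the coproduct of `x` (variables over one orbit) on `GL_a × GL_d`;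
* `exists_comb` : the functions `Om x ⊗ Om X_v`, `x` in the span of the derivatives, are integral combinations of
  Harish-Chandra restrictions.
-/

set_option autoImplicit false
set_option linter.unusedSectionVars false

open Cfsg
open scoped MatrixGroups TensorProduct

namespace Cfsg.Agent.H139.P5GL

open Cfsg.Agent.H624.Sl Cfsg.Agent.H577.GLB Cfsg.Agent.H577.GLB.Real Cfsg.Agent.H577.GLB.Std
open Cfsg.Agent.H623.GLn (evT evT_tmul evA_apply omL omL_apply Om_monomial_ne)
open Cfsg.Agent.H614.GLn.RSt (Pw_eq canon_mem_repsZ perZ_of_same sameZ_canon perZ_pos)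

universe u w

/-! ### the coproduct and the partial derivatives -/

section coef

variable {M : ℕ}

open MvPolynomial

/-- a functional applied to the second factor -/
noncomputable def Ev (f : RS M →ₗ[ℂ] ℂ) : RS M ⊗[ℂ] RS M →ₗ[ℂ] RS M :=
  (TensorProduct.rid ℂ (RS M)).toLinearMap ∘ₗ TensorProduct.map LinearMap.id f

theorem Ev_tmul (f : RS M →ₗ[ℂ] ℂ) (y z : RS M) : Ev f (y ⊗ₜ[ℂ] z) = f z • y := by
  simp [Ev]

theorem Ev_mul_left (f : RS M →ₗ[ℂ] ℂ) (z : RS M ⊗[ℂ] RS M) (y : RS M) :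
    Ev f (z * (y ⊗ₜ[ℂ] (1 : RS M))) = Ev f z * y := by
  induction z with
  | zero => rw [zero_mul, map_zero, zero_mul]
  | add z z' hz hz' => rw [add_mul, map_add, map_add, hz, hz', add_mul]
  | tmul a b => rw [Algebra.TensorProduct.tmul_mul_tmul, Ev_tmul, Ev_tmul, mul_one, smul_mul_assoc]

theorem Ev_mul_right {f g : RS M →ₗ[ℂ] ℂ} {y : RS M} (h : ∀ b, f (b * y) = g b) (z : RS M ⊗[ℂ] RS M) :
    Ev f (z * ((1 : RS M) ⊗ₜ[ℂ] y)) = Ev g z := by
  induction z with
  | zero => rw [zero_mul, map_zero, map_zero]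
  | add z z' hz hz' => rw [add_mul, map_add, map_add, hz, hz']
  | tmul a b => rw [Algebra.TensorProduct.tmul_mul_tmul, Ev_tmul, Ev_tmul, mul_one, h]

theorem Ev_zero (z : RS M ⊗[ℂ] RS M) : Ev 0 z = 0 := by
  rw [Ev, TensorProduct.map_zero_right]
  simp

theorem coP_C (c : ℂ) : coP M (C c) = c • ((1 : RS M) ⊗ₜ[ℂ] (1 : RS M)) := by
  have h3 := AlgHom.commutes (coP M) c
  rw [Algebra.algebraMap_eq_smul_one (A := RS M ⊗[ℂ] RS M)] at h3
  exact h3

theorem coP_X (v : Var M) : coP M (X v) = (X v) ⊗ₜ[ℂ] (1 : RS M) + (1 : RS M) ⊗ₜ[ℂ] (X v) := by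
  rw [coP, aeval_X]

theorem Ev_coP_zero (x : RS M) : Ev (lcoeff ℂ 0) (coP M x) = x := by
  induction x using MvPolynomial.induction_on with
  | C c =>
    rw [coP_C, map_smul, Ev_tmul]
    change c • (coeff 0 (1 : RS M)) • (1 : RS M) = _
    rw [coeff_zero_one, one_smul, smul_eq_C_mul, mul_one]
  | add x y hx hy => rw [map_add, map_add, hx, hy]
  | mul_X x v hx =>
    have h1 : ∀ b : RS M, lcoeff ℂ 0 (b * X v) = (0 : RS M →ₗ[ℂ] ℂ) b := by
      intro b
      change coeff 0 (b * X v) = 0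
      rw [coeff_mul_X', if_neg (by simp)]
    rw [map_mul, coP_X, mul_add, map_add, Ev_mul_left, hx, Ev_mul_right h1, Ev_zero, add_zero]

/-- the coefficient of `X v` in the second factor of the coproduct is the partial derivative -/
theorem Ev_coP (v : Var M) (x : RS M) : Ev (lcoeff ℂ (Finsupp.single v 1)) (coP M x) = pderiv v x := by
  classical
  induction x using MvPolynomial.induction_on with
  | C c =>
    rw [coP_C, map_smul, Ev_tmul, pderiv_C]
    change c • (coeff (Finsupp.single v 1) (1 : RS M)) • (1 : RS M) = _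
    rw [coeff_one, if_neg, zero_smul, smul_zero]
    intro h
    have h1 := DFunLike.congr_fun h v
    rw [Finsupp.single_eq_same] at h1
    exact absurd h1 (by simp)
  | add x y hx hy => rw [map_add, map_add, hx, hy, map_add]
  | mul_X x v' hx =>
    rw [map_mul, coP_X, mul_add, map_add, Ev_mul_left, hx, Derivation.leibniz, pderiv_X, smul_eq_mul, smul_eq_mul]
    by_cases hv : v' = v
    · subst hv
      have h1 : ∀ b : RS M, lcoeff ℂ (Finsupp.single v' 1) (b * X v') = lcoeff ℂ 0 b := by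
        intro b
        change coeff _ (b * X v') = coeff 0 b
        rw [coeff_mul_X', if_pos (by simp), tsub_self]
      rw [Ev_mul_right h1, Ev_coP_zero, Pi.single_eq_same, mul_one]
      ring
    · have h1 : ∀ b : RS M, lcoeff ℂ (Finsupp.single v 1) (b * X v') = (0 : RS M →ₗ[ℂ] ℂ) b := by
        intro b
        change coeff _ (b * X v') = 0
        rw [coeff_mul_X', if_neg]
        rw [Finsupp.mem_support_iff, Finsupp.single_eq_of_ne hv]
        simp
      rw [Ev_mul_right h1, Ev_zero, Pi.single_eq_of_ne hv, mul_zero]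
      ring

theorem coP_mem_supp (T : Set (Var M)) {x : RS M} (hx : x ∈ supported ℂ T) :
    coP M x ∈ (Algebra.TensorProduct.map (supported ℂ T).val (supported ℂ T).val).range := by
  have h1 : supported ℂ T ≤ ((Algebra.TensorProduct.map (supported ℂ T).val (supported ℂ T).val).range).comap
      (coP M) := by
    refine Algebra.adjoin_le (S := ((Algebra.TensorProduct.map (supported ℂ T).val
      (supported ℂ T).val).range).comap (coP M)) ?_
    rintro _ ⟨v, hv, rfl⟩
    have h2 : (X v : RS M) ∈ supported ℂ T := Algebra.subset_adjoin ⟨v, hv, rfl⟩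
    refine ⟨(⟨X v, h2⟩ : supported ℂ T) ⊗ₜ[ℂ] 1 + 1 ⊗ₜ[ℂ] (⟨X v, h2⟩ : supported ℂ T), ?_⟩
    change Algebra.TensorProduct.map (supported ℂ T).val (supported ℂ T).val _ = coP M (X v)
    rw [map_add, Algebra.TensorProduct.map_tmul, Algebra.TensorProduct.map_tmul, coP_X, map_one]
    rfl
  exact h1 hx

theorem coP_congr (T : Set (Var M)) {x : RS M} (hx : x ∈ supported ℂ T) {g₁ g₁' g₂ g₂' : RS M →ₗ[ℂ] ℂ}
    (h₁ : ∀ a ∈ supported ℂ T, g₁ a = g₁' a) (h₂ : ∀ a ∈ supported ℂ T, g₂ a = g₂' a) :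
    LinearMap.mul' ℂ ℂ (TensorProduct.map g₁ g₂ (coP M x)) =
      LinearMap.mul' ℂ ℂ (TensorProduct.map g₁' g₂' (coP M x)) := by
  obtain ⟨w, hw⟩ := coP_mem_supp T hx
  rw [← hw]
  clear hw
  congr 1
  change TensorProduct.map g₁ g₂ (TensorProduct.map (supported ℂ T).val.toLinearMap
      (supported ℂ T).val.toLinearMap w) =
    TensorProduct.map g₁' g₂' (TensorProduct.map (supported ℂ T).val.toLinearMap
      (supported ℂ T).val.toLinearMap w)
  induction w with
  | zero => simp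
  | add w w' hw hw' => simp only [map_add, hw, hw']
  | tmul a b =>
    simp only [TensorProduct.map_tmul]
    congr 1
    · exact h₁ _ a.2
    · exact h₂ _ b.2

theorem mul'_map (g f : RS M →ₗ[ℂ] ℂ) (c : ℂ) (z : RS M ⊗[ℂ] RS M) :
    LinearMap.mul' ℂ ℂ (TensorProduct.map g (c • f) z) = g (Ev f z) * c := by
  induction z with
  | zero => simp
  | add z z' hz hz' => rw [map_add, map_add, map_add, map_add, hz, hz', add_mul]
  | tmul a b =>
    rw [TensorProduct.map_tmul, LinearMap.mul'_apply, Ev_tmul, map_smul, LinearMap.smul_apply, smul_eq_mul,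
      smul_eq_mul]
    ring

end coef

/-! ### evaluation -/

section ev

variable {F : Type u} [Field F] [Finite F] {K : Type w} [Field K] [Algebra F K] (θ : K →*₀ ℂ) (M : ℕ) [NeZero M]

open MvPolynomial

/-- the variables over one label -/
abbrev TT {M : ℕ} (b : ℕ) (c₀ : ZMod M) : Set (Var M) := {v | v.2 = c₀ ∧ b ∣ v.1 ∧ 0 < v.1}

theorem eq_single {b : ℕ} (hb : 0 < b) {c₀ : ZMod M} {m : Var M →₀ ℕ} (hm : ∀ v ∈ m.support, v ∈ TT b c₀)
    (hw : Finsupp.weight (fun v : Var M => v.1) m = b) : m = Finsupp.single (b, c₀) 1 := by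
  classical
  have h0 : m ≠ 0 := by
    rintro rfl
    rw [map_zero] at hw
    omega
  obtain ⟨v, hv⟩ := Finsupp.support_nonempty_iff.2 h0
  have h1 : Finsupp.single v 1 ≤ m := by
    rw [Finsupp.single_le_iff]
    exact Nat.one_le_iff_ne_zero.2 (Finsupp.mem_support_iff.1 hv)
  obtain ⟨m', rfl⟩ := exists_add_of_le h1
  obtain ⟨h2, h3, h4⟩ := hm v hv
  have h5 := Nat.le_of_dvd h4 h3
  rw [map_add, Finsupp.weight_single, one_smul] at hw
  have h6 : m' = 0 := by
    by_contra h7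
    obtain ⟨v', hv'⟩ := Finsupp.support_nonempty_iff.2 h7
    obtain ⟨-, -, h8⟩ := hm v' (by
      rw [Finsupp.mem_support_iff, Finsupp.add_apply]
      have := Finsupp.mem_support_iff.1 hv'
      omega)
    have h9 : Finsupp.single v' 1 ≤ m' := by
      rw [Finsupp.single_le_iff]
      exact Nat.one_le_iff_ne_zero.2 (Finsupp.mem_support_iff.1 hv')
    obtain ⟨m'', rfl⟩ := exists_add_of_le h9
    rw [map_add, Finsupp.weight_single, one_smul] at hw
    omega
  rw [h6, map_zero] at hw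
  rw [h6, add_zero]
  congr 1
  exact Prod.ext (by simpa using hw) h2

theorem Om_of_supp {b : ℕ} (hb : 0 < b) (c₀ : ZMod M) {y : RS M} (hy : y ∈ supported ℂ (TT b c₀))
    (B : GL (Fin b) F) :
    Om (F := F) θ M b y B = Om (F := F) θ M b (X (b, c₀)) B * coeff (Finsupp.single (b, c₀) 1) y := by
  classical
  have h1 : Om (F := F) θ M b y = ∑ m ∈ y.support, Om (F := F) θ M b (monomial m (coeff m y)) := by
    conv_lhs => rw [← support_sum_monomial_coeff y]
    rw [← omL_apply, map_sum]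
    rfl
  rw [mem_supported] at hy
  have h2 : ∀ m ∈ y.support, ∀ v ∈ m.support, v ∈ TT b c₀ := fun m hm v hv =>
    hy ((mem_vars_iff_mem_support v).2 ⟨m, hm, hv⟩)
  rw [h1, Finset.sum_apply, Finset.sum_eq_single (Finsupp.single (b, c₀) 1)]
  · have h3 : (monomial (Finsupp.single (b, c₀) 1) (coeff (Finsupp.single (b, c₀) 1) y) : RS M) =
        coeff (Finsupp.single (b, c₀) 1) y • X (b, c₀) := by
      rw [X, smul_monomial, smul_eq_mul, mul_one]
    rw [h3, ← omL_apply, map_smul, Pi.smul_apply, smul_eq_mul, omL_apply, mul_comm]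
  · intro m hm hne
    rw [Om_monomial_ne θ _ fun h => hne (eq_single M hb (h2 m hm) h)]
    rfl
  · intro h
    rw [notMem_support_iff.1 h, monomial_zero, ← omL_apply, map_zero]
    rfl

/-- the coproduct of `x` on `GL_a × GL_b`, if the weights of all variables of `x` are multiples of `b` -/
theorem evT_coP {a b : ℕ} (hb : 0 < b) (c₀ : ZMod M) {x : RS M} (hx : x ∈ supported ℂ (TT b c₀))
    (A : GL (Fin a) F) (B : GL (Fin b) F) :
    evT θ M (Matrix.toLin' A.1) (Matrix.toLin' B.1) (coP M x) =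
      Om (F := F) θ M a (pderiv (b, c₀) x) A * Om (F := F) θ M b (X (b, c₀)) B := by
  have h1 : evT θ M (Matrix.toLin' A.1) (Matrix.toLin' B.1) (coP M x) =
      LinearMap.mul' ℂ ℂ (TensorProduct.map (evA θ M (Matrix.toLin' A.1)) (evA θ M (Matrix.toLin' B.1))
        (coP M x)) := rfl
  rw [h1, coP_congr (TT b c₀) hx (g₁' := evA θ M (Matrix.toLin' A.1))
    (g₂' := Om (F := F) θ M b (X (b, c₀)) B • lcoeff ℂ (Finsupp.single (b, c₀) 1)) (fun _ _ => rfl) ?_,
    mul'_map, Ev_coP]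
  · rfl
  · intro y hy
    exact Om_of_supp θ M hb c₀ hy B

end ev

section lab

variable {Q : ℤ} {M : ℕ} [NeZero M]

open MvPolynomial Cfsg.Agent.H614

theorem SchP_mem_supp (hQ : IsUnit (Q : ZMod M)) {m n : ℕ} (t : LabZ Q M m n) {δ : ZMod M}
    (h : OnlyOn Q M δ t.t) : SchP Q M t.t ∈ supported ℂ (TT (perZ Q M δ) (canon Q M δ)) := by
  rw [Cfsg.Agent.H76.GLB.SchP_onlyOn hQ t h]
  unfold Cfsg.Agent.H614.GLn.SS Cfsg.Agent.H614.GLn.ZV
  refine Subalgebra.sum_mem _ fun ν _ => Subalgebra.smul_mem _ (Subalgebra.smul_mem _ ?_ _) _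
  refine Subalgebra.multiset_prod_mem _ fun x hx => ?_
  obtain ⟨j, hj, rfl⟩ := Multiset.mem_map.1 hx
  have hj0 : 0 < j := ν.parts_pos hj
  rw [Pw_eq hQ (canon_mem_repsZ hQ δ) hj0, ← perZ_of_same hQ (sameZ_canon δ)]
  exact Algebra.subset_adjoin ⟨_, ⟨rfl, Dvd.intro_left j rfl, Nat.mul_pos hj0 (perZ_pos hQ δ)⟩, rfl⟩

end lab

section comb

variable {F : Type u} [Field F] [Finite F] {K : Type u} [Field K] [Algebra F K] {θ : K →*₀ ℂ} {M : ℕ} [NeZero M]

open MvPolynomial

/-- the functions `Om x ⊗ Om X_v`, `x` in the span of the derivatives, are integral combinations of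
Harish-Chandra restrictions of the characters over one orbit -/
theorem exists_comb (hQ : IsUnit (((Nat.card F : ℕ) : ℤ) : ZMod M)) {a n m : ℕ} (δ : ZMod M)
    (e : ((Fin a → F) × (Fin (perZ (Nat.card F) M δ) → F)) ≃ₗ[F] (Fin n → F))
    {B : Set (IrrCharacter (GL (Fin n) F))}
    (hB : ∀ t : LabZ (Nat.card F) M m n, OnlyOn (Nat.card F) M δ t.t → ∃ χ ∈ B, IsLab θ M m n χ t)
    {x : RS M} (hx : x ∈ Submodule.span ℤ {x : RS M | ∃ t : LabZ (Nat.card F) M m n,
      OnlyOn (Nat.card F) M δ t.t ∧ x = pderiv (perZ (Nat.card F) M δ, canon (Nat.card F) M δ)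
        (SchP (Nat.card F) M t.t)}) :
    ∃ c : IrrCharacter (GL (Fin n) F) → ℤ, (∀ χ, χ ∉ B → c χ = 0) ∧
      ∀ (A : GL (Fin a) F) (C : GL (Fin (perZ (Nat.card F) M δ)) F) (h : (jj (K := F) e).range),
        jj (K := F) e (A, C) = h →
        Om (F := F) θ M a x A * Om (F := F) θ M _ (X (perZ (Nat.card F) M δ, canon (Nat.card F) M δ)) C =
          ∑ᶠ χ, (c χ : ℂ) * hcRes (jj (K := F) e).range (Ur e) (χ : GL (Fin n) F → ℂ) h := by
  classical
  have := Characters.Core.finite_irr (G := GL (Fin n) F)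
  have := Fintype.ofFinite (IrrCharacter (GL (Fin n) F))
  induction hx using Submodule.span_induction with
  | mem x hx =>
    obtain ⟨t, ht, rfl⟩ := hx
    obtain ⟨χ, hχ, s, hs⟩ := hB t ht
    refine ⟨Pi.single χ (s : ℤ), ?_, ?_⟩
    · intro χ' hχ'
      refine Pi.single_eq_of_ne (fun h => hχ' ?_) _
      rw [h]
      exact hχ
    · intro A C h hh
      rw [← evT_coP θ M (perZ_pos hQ δ) (canon (Nat.card F) M δ) (SchP_mem_supp hQ t ht) A C,
        ← hcRes_Om e θ M _ A C h hh, hs, finsum_eq_single _ χ]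
      · rw [Pi.single_eq_same]
        unfold hcRes
        have := Fintype.ofFinite (Ur e)
        rw [finsum_eq_sum_of_fintype, finsum_eq_sum_of_fintype, ← mul_div_assoc, Finset.mul_sum]
        rfl
      · intro χ' hne
        rw [Pi.single_eq_of_ne hne, Int.cast_zero, zero_mul]
  | zero =>
    refine ⟨0, fun _ _ => rfl, fun A C h _ => ?_⟩
    rw [← omL_apply, map_zero]
    simp
  | add x y _ _ hx hy =>
    obtain ⟨c, hc, hc'⟩ := hx
    obtain ⟨d, hd, hd'⟩ := hy
    refine ⟨c + d, fun χ hχ => by rw [Pi.add_apply, hc χ hχ, hd χ hχ, add_zero], fun A C h hh => ?_⟩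
    have h1 : Om (F := F) θ M a (x + y) A = Om (F := F) θ M a x A + Om (F := F) θ M a y A := by
      rw [← omL_apply, map_add]
      rfl
    rw [h1, add_mul, hc' A C h hh, hd' A C h hh, finsum_eq_sum_of_fintype, finsum_eq_sum_of_fintype,
      finsum_eq_sum_of_fintype, ← Finset.sum_add_distrib]
    refine Finset.sum_congr rfl fun χ _ => ?_
    rw [Pi.add_apply]
    push_cast
    ring
  | smul k x _ hx =>
    obtain ⟨c, hc, hc'⟩ := hx
    refine ⟨k • c, fun χ hχ => by rw [Pi.smul_apply, hc χ hχ, smul_zero], fun A C h hh => ?_⟩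
    have h1 : Om (F := F) θ M a (k • x) A = (k : ℂ) * Om (F := F) θ M a x A := by
      rw [← omL_apply, ← Int.cast_smul_eq_zsmul ℂ, map_smul]
      rfl
    rw [h1, mul_assoc, hc' A C h hh, finsum_eq_sum_of_fintype, finsum_eq_sum_of_fintype, Finset.mul_sum]
    refine Finset.sum_congr rfl fun χ _ => ?_
    rw [Pi.smul_apply, smul_eq_mul]
    push_cast
    ring

end comb

end Cfsg.Agent.H139.P5GL
end

-- part: H666/Clif/Exc
section
/-!
# The exceptional cases for `GL_n(F)`, `p = 2`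
-/

set_option autoImplicit false
set_option linter.unusedSectionVars false

open Cfsg
open scoped ComplexConjugate MatrixGroups

namespace Cfsg.Agent.H666.Clif

open Cfsg.Agent.H577.GLB Cfsg.Agent.H577.GLB.Std Cfsg.Agent.H577.GLB.Real Cfsg.Agent.H112.GLB
open Cfsg.Agent.H657 Cfsg.Agent.H608.BlockRank Cfsg.Agent.Blocks.Basic Cfsg.Agent.Blocks.Local
open Cfsg.Agent.H614.GLn Cfsg.Agent.H624.Sl

universe u

variable {F : Type u} [Field F] [Finite F] {K : Type u} [Field K] [Algebra F K] {θ : K →*₀ ℂ} {N M : ℕ} [NeZero M]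
  {p n : ℕ} {𝔐 : Ideal AlgInt} {V : ValuationSubring ℂ}

/-- if `p` divides `q - 1`, a family is a block -/
theorem famSet_eq (hctx : Ctx F θ N M) (hpF : p ≠ ringChar F) (h𝔐 : IsPModular p 𝔐)
    (hq : ((Nat.card F : ℕ) : ZMod p) = 1) {m : ℕ} (hn : n ≤ N) (hm : n ≤ m)
    {B : Set (IrrCharacter (GL (Fin n) F))} (hB : IsPBlock 𝔐 B) {χ : IrrCharacter (GL (Fin n) F)} (hχ : χ ∈ B)
    {t : LabZ (Nat.card F) M m n} (ht : IsLab θ M m n χ t) : famSet θ p t = B := by
  ext ψ
  constructor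
  · rintro ⟨t', ht', hf⟩
    exact sameBlock_of_fam hctx hpF h𝔐 hq hn hm hB hχ ht ht' hf
  · intro hψ
    obtain ⟨t', ht', -⟩ := (isLab_bij hctx hn hm).1 ψ
    exact ⟨t', ht', sameFam_of_mem_of hctx hpF h𝔐 hn hm (isLab_bij hctx hn hm) hB hχ hψ ht ht'⟩

/-- **The exceptional cases.** -/
theorem exc_slS (hctx : Ctx F θ N M) (hpF : p ≠ ringChar F) (h𝔐 : IsPModular p 𝔐) (hV : Above 𝔐 V) [𝔐.IsPrime]
    (hn : n ≤ N) (hn0 : 0 < n) {m : ℕ} (hm : n ≤ m)
    {B : Set (IrrCharacter (GL (Fin n) F))} (hB : IsPBlock 𝔐 B)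
    {B' : Set (IrrCharacter (slS F n))} (hB' : IsPBlock 𝔐 B') (hcov : Cov (slS F n) B B')
    {χ : IrrCharacter (GL (Fin n) F)} (hχ : χ ∈ B) {t : LabZ (Nat.card F) M m n} (ht : IsLab θ M m n χ t)
    (ht' : POnly M p t.t) (hp2 : p = 2) (hq : ((Nat.card F : ℕ) : ZMod p) = 1) (δ₀ : ZMod M)
    (h₁ : OnlyOn (Nat.card F) M δ₀ t.t)
    (hw : Std.bsz (t.t δ₀) = 2 ∨ Std.bsz (t.t δ₀) = 4 ∨ Std.bsz (t.t δ₀) = 8)
    (hchain : ∀ a : ZMod M, SF (Nat.card F) M p t a → Chain p 𝔐 (linH F θ M a) n B)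
    (helab : ∀ D : Subgroup (GL (Fin n) F), IsDefectGroup p 𝔐 B D → ∃ A : Subgroup (GL (Fin n) F), A ≤ D ∧
      (∀ x ∈ A, ∀ y ∈ A, x * y = y * x) ∧ (∀ x ∈ A, x ^ p = 1) ∧ Nat.card A = p ^ totW (Nat.card F) M p t.t)
    (hE1 : Std.bsz (t.t δ₀) = 2 → ∀ D : Subgroup (GL (Fin n) F), IsDefectGroup p 𝔐 B D →
      ¬ IsCyclic (D ⊓ slS F n : Subgroup (GL (Fin n) F)))
    (hE2 : Std.bsz (t.t δ₀) = 4 → ∀ D : Subgroup (GL (Fin n) F), IsDefectGroup p 𝔐 B D → ∀ s : ℕ,
      SectionalPRankLE p s (D ⊓ slS F n : Subgroup (GL (Fin n) F)) → 4 ≤ s)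
    (hP5 : ∀ O : IBr V (GL (Fin n) F) → Finset (IBr V (pKer (slS F n) p)),
      (∀ i ∈ ibrUnder V (famSet θ p t), IsRes p (pKer (slS F n) p) i (O i)) →
      Fintype.card (Nat.Partition (Std.bsz (t.t δ₀) - 1)) ≤
        Nat.card {i : IBr V (GL (Fin n) F) // i ∈ ibrUnder V (famSet θ p t) ∧ (O i).card = 1})
    (D' : Subgroup (slS F n)) (hD' : IsDefectGroup p 𝔐 B' D') {s : ℕ} (hs : SectionalPRankLE p s D') :
    blockRank p B' ≤ p ^ s := by
  classical
  subst hp2
  have hp := h𝔐.1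
  have hlab := isLab_bij hctx hn hm
  have hcyc : IsCyclic (GL (Fin n) F ⧸ slS F n) := isCyclic_quot_SK hn0
  have hQ : IsUnit (((Nat.card F : ℕ) : ℤ) : ZMod M) := (GLrz hctx hp hpF hn).unit
  have hgen := exists_SF_gen hQ t ht'
  have hfam := famSet_eq hctx hpF h𝔐 hq hn hm hB hχ ht
  have hNz : ∀ a : ZMod M, SF (Nat.card F) M 2 t a → ∃ x : GL (Fin n) F,
      Nz 𝔐 ((glLin hctx hp hpF hn hn0).ln a) B x := by
    intro a ha
    refine lemmaA h𝔐 (α := linH F θ M a) ?_ (hchain a ha)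
    have hN : 1 ≤ N := hn0.trans_le hn
    refine ⟨addOrderOf a, addOrderOf_pos a, ?_, ?_⟩
    · have hpa : (addOrderOf a).Coprime 2 := ha.1.2.1
      exact fun h => hp.one_lt.ne' (Nat.eq_one_of_dvd_coprimes hpa h (dvd_refl 2))
    · intro y
      rw [← orderOf_linH hctx hN ha.1.1, ← MonoidHom.pow_apply, pow_orderOf_eq_one]
      rfl
  have := Fintype.ofFinite (IBr V (GL (Fin n) F))
  have := Fintype.ofFinite (ibrUnder V B)
  choose O hOne hO hO1 hO2 using H112.Clif.clifford_cyclic (V := V) h𝔐 hV (pKer (slS F n) 2)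
    (isCyclic_quot (le_pKer (slS F n) 2) hcyc)
  have hdesc := (glLin hctx hp hpF hn hn0).desc_SF_kappa h𝔐 hV hcyc (m := m) hB hB' hcov hgen hNz O
    (fun i _ => hO i)
  obtain ⟨-, -, hstab⟩ := H76.GLB.card_family_one (p := 2) hp hQ (by rw [Int.cast_natCast, hq]) hm t ht' δ₀ h₁
  have hSF : Nat.card {a : ZMod M // Stab (Nat.card F) M 2 t a} =
      Nat.card {b : ZMod M // SF (Nat.card F) M 2 t b} :=
    Nat.card_congr (Equiv.subtypeEquivRight fun a => ⟨fun h => (hstab a h).1, fun h => h.1⟩)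
  refine Exc.exc_of hctx hpF h𝔐 hV hn hm hB hB' hcov D' hD' hs hχ ht ht' δ₀ h₁ hw helab hE1 hE2 O ?_
    (hP5 O (fun i _ => hO i)) (Nat.card {b : ZMod M // SF (Nat.card F) M 2 t b}) ?_
    (fun i => Nat.card {l : GL (Fin n) F →* ℂˣ // ((∀ x ∈ slS F n, l x = 1) ∧ (orderOf l).Coprime 2) ∧
        (fun g => (l g : ℂ) * phi 2 i g) = phi 2 i}) ?_ hdesc
  · intro i hi
    rw [hfam] at hi
    exact (glLin hctx hp hpF hn hn0).card_pKer_dvd h𝔐 hV hcyc hm hlab hB hχ ht ht' hi (hO i) δ₀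
  · obtain ⟨a, ha, -⟩ := hgen
    have : Nonempty {b : ZMod M // SF (Nat.card F) M 2 t b} := ⟨⟨a, ha⟩⟩
    exact Nat.card_pos
  · intro i hi
    rw [← hSF]
    exact (glLin hctx hp hpF hn hn0).card_fixing_le h𝔐 hV hcyc hm hlab hB hχ ht hi

end Cfsg.Agent.H666.Clif
end

-- part: H166/GLB/HC
section
/-!
# S4536 (P5GL): irreducibility of the restriction of Brauer characters of `GL_a × GL_b` to the `p`-kernel (helper166)

`hC_prod`: the irreducible Brauer characters of the Levi subgroup `L = GL_a(F) × GL_b(F)` of `GL_n(F)` in the block with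
label `(t₁, t₂)` with `t₂` of weight `1` have irreducible restriction to `L ∩ pKer (slS F n) p`.
-/

set_option autoImplicit false
set_option linter.unusedSectionVars false
open Polynomial Cfsg
open scoped ComplexConjugate TensorProduct MatrixGroups

namespace Cfsg.Agent.H166.GLB

open Cfsg.Agent.H577.GLB Cfsg.Agent.H577.GLB.Std Cfsg.Agent.H577.GLB.Real Cfsg.Agent.H614.GLn
open Cfsg.Agent.H657 Cfsg.Agent.H624.Sl Cfsg.Agent.Blocks.Local Cfsg.Agent.H644
open Cfsg.Agent.H666.Clif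

universe u

/-- quotients of subgroups -/
theorem quot_subgroupOf {G : Type*} [Group G] [Finite G] (P L : Subgroup G) [P.Normal] (hc : IsCyclic (G ⧸ P))
    {p c : ℕ} (hp : p.Prime) (hi : P.index = p ^ c) :
    IsCyclic (L ⧸ P.subgroupOf L) ∧ ∃ c', Nat.card (L ⧸ P.subgroupOf L) = p ^ c' := by
  let f : L ⧸ P.subgroupOf L →* G ⧸ P := QuotientGroup.map (P.subgroupOf L) P L.subtype (fun x hx => hx)
  have hf : Function.Injective f := by
    rw [injective_iff_map_eq_one]
    intro x hx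
    obtain ⟨y, rfl⟩ := QuotientGroup.mk_surjective x
    have h1 : ((y : G) : G ⧸ P) = 1 := hx
    rw [QuotientGroup.eq_one_iff] at h1 ⊢
    exact h1
  refine ⟨isCyclic_of_injective f hf, ?_⟩
  have h1 : Nat.card (L ⧸ P.subgroupOf L) ∣ p ^ c := by
    rw [← hi]
    exact Subgroup.card_dvd_of_injective f hf
  obtain ⟨c', -, hc'⟩ := (Nat.dvd_prime_pow hp).1 h1
  exact ⟨c', hc'⟩

variable {F : Type u} [Field F] [Finite F] {K : Type u} [Field K] [Algebra F K] {θ : K →*₀ ℂ} {N M : ℕ} [NeZero M]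
  {p : ℕ} {𝔐 : Ideal AlgInt} {V : ValuationSubring ℂ}

theorem hC_aux (hctx : Ctx F θ N M) (hpF : p ≠ ringChar F) (h𝔐 : IsPModular p 𝔐) (hV : Above 𝔐 V)
    (hq : ((Nat.card F : ℕ) : ZMod p) = 1) {a b n m : ℕ} (hn : n ≤ N) (hm : n ≤ m) (hb0 : 0 < b)
    (e : ((Fin a → F) × (Fin b → F)) ≃ₗ[F] (Fin n → F))
    (t₁ : LabZ (Nat.card F) M m a) (t₂ : LabZ (Nat.card F) M m b) (h₂ : POnly M p t₂.t) (δ₀ : ZMod M)
    (hw : Std.bsz (t₂.t δ₀) = 1) {L : Subgroup (GL (Fin n) F)} (hL : (jj (K := F) e).range = L) {i : IBr V L}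
    (hi : i ∈ ibrUnder V (prodBlk L (jj e) (famSet θ p t₁) (famSet θ p t₂))) :
    ∃ i' : IBr V ((pKer (slS F n) p).subgroupOf L), IsRes p ((pKer (slS F n) p).subgroupOf L) i {i'} := by
  classical
  have hp := h𝔐.1
  have : Fact p.Prime := ⟨hp⟩
  have hMp := isPrime_of_isPModular h𝔐
  have hab : a + b = n := by
    have h1 := e.finrank_eq
    rwa [Module.finrank_prod, Module.finrank_fin_fun, Module.finrank_fin_fun, Module.finrank_fin_fun] at h1
  have hn0 : 0 < n := by omega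
  have hbN : b ≤ N := by omega
  have hbm : b ≤ m := by omega
  have hne : Nonempty (Fin b) := ⟨⟨0, hb0⟩⟩
  have hjj : Function.Injective (jj (K := F) e) := H901.Sl.jj_injective e
  have hmem : ∀ x, jj (K := F) e x ∈ L := fun x => hL ▸ ⟨x, rfl⟩
  set P : Subgroup (GL (Fin n) F) := pKer (slS F n) p with hP
  have hcycS : IsCyclic (GL (Fin n) F ⧸ slS F n) := isCyclic_quot_SK hn0
  have hcycP : IsCyclic (GL (Fin n) F ⧸ P) := isCyclic_quot (le_pKer (slS F n) p) hcycS
  obtain ⟨lp, lq, c, m', -, -, hlp, -, hK, -, -⟩ := exists_split (slS F n) hcycS hp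
  have hidx : P.index = p ^ c := by rw [hP, hK, H666.Clif.index_ker, hlp]
  obtain ⟨hcyc, c', hc'⟩ := quot_subgroupOf P L hcycP hp hidx
  obtain ⟨O, hOne, hO, -, -⟩ := H112.Clif.clifford_cyclic (V := V) h𝔐 hV (P.subgroupOf L) hcyc i
  obtain ⟨χ, ⟨χ₁, hχ₁, χ₂, hχ₂, hχ⟩, hiχ⟩ := hi
  obtain ⟨l, ψ, hψ, hl, ho, hfix⟩ := exists_fixed h𝔐 hV (P.subgroupOf L) hcyc hc' (B := blockOf 𝔐 (χ : L → ℂ))
    ⟨χ, rfl⟩ i ⟨χ, Blocks.Induced.sameBlock_refl hMp _, hiχ⟩ O hO
  -- the factors of `ψ`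
  rw [← H76.GLB.prodBlk_blockOf h𝔐 hjj hL χ₁ χ₂ χ hχ] at hψ
  obtain ⟨ψ₁, -, ψ₂, hψ₂, hψe⟩ := hψ
  -- the order of `l` is a power of `p`
  obtain ⟨j, hj⟩ : ∃ j, orderOf l = p ^ j := by
    have h1 := card_dvd_index h𝔐 hV (P.subgroupOf L) hcyc hO
    have h2 : (P.subgroupOf L).index = p ^ c' := hc'
    rw [h2] at h1
    obtain ⟨j, -, hj⟩ := (Nat.dvd_prime_pow hp).1 h1
    exact ⟨j, ho.trans hj⟩
  -- the second component
  let l₂ : GL (Fin b) F →* ℂˣ := (l.comp ((jj (K := F) e).codRestrict L hmem)).comp (MonoidHom.inr _ _)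
  have hl₂ : ∀ x, l₂ x = l ⟨jj (K := F) e (1, x), hmem (1, x)⟩ := fun x => rfl
  have hker : ∀ (x : GL (Fin a) F × GL (Fin b) F) (h : L), jj (K := F) e x = h →
      Matrix.GeneralLinearGroup.det x.1 * Matrix.GeneralLinearGroup.det x.2 = 1 → l h = 1 := by
    intro x h hx hd
    refine hl h ?_
    rw [Subgroup.mem_subgroupOf, ← hx]
    refine le_pKer (slS F n) p ?_
    change Matrix.GeneralLinearGroup.det (jj (K := F) e (x.1, x.2)) = 1
    rw [H901.Sl.det_jj, ← hd]
    congr 1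
    apply Units.ext
    change Algebra.norm F (Matrix.GeneralLinearGroup.det x.1 : F) = _
    rw [Algebra.norm_self]
    rfl
  have hl₂S : ∀ x ∈ slS F b, l₂ x = 1 := by
    intro x hx
    refine hker (1, x) _ rfl ?_
    rw [map_one, one_mul]
    exact hx
  have hord : orderOf l₂ = p ^ j := by
    rw [← hj]
    refine orderOf_eq_orderOf_iff.2 fun k => ?_
    constructor
    · intro hk
      ext h
      obtain ⟨x, hx⟩ : (h : GL (Fin n) F) ∈ (jj (K := F) e).range := hL ▸ h.2
      obtain ⟨y, hy⟩ := Matrix.GeneralLinearGroup.det_surjective (n := Fin b) (R := F)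
        (Matrix.GeneralLinearGroup.det x.1 * Matrix.GeneralLinearGroup.det x.2)
      have h1 : l h = l₂ y := by
        rw [hl₂, ← mul_inv_eq_one, ← map_inv, ← map_mul]
        refine hker (x * (1, y)⁻¹) _ ?_ ?_
        · rw [map_mul, map_inv, hx]
          rfl
        · rw [Prod.fst_mul, Prod.snd_mul, Prod.fst_inv, Prod.snd_inv, inv_one, mul_one, map_mul, map_inv, hy,
            ← mul_assoc, mul_inv_cancel]
      have h2 := DFunLike.congr_fun hk y
      rw [MonoidHom.pow_apply, MonoidHom.one_apply] at h2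
      rw [MonoidHom.pow_apply, MonoidHom.one_apply, h1, h2]
    · intro hk
      ext y
      have h2 := DFunLike.congr_fun hk ⟨jj (K := F) e (1, y), hmem (1, y)⟩
      rw [MonoidHom.pow_apply, MonoidHom.one_apply] at h2
      rw [MonoidHom.pow_apply, MonoidHom.one_apply, hl₂, h2]
  have hfix₂ : ∀ g, (l₂ g : ℂ) * (ψ₂ : GL (Fin b) F → ℂ) g = (ψ₂ : GL (Fin b) F → ℂ) g := by
    intro g
    have h1 := hfix ⟨jj (K := F) e (1, g), hmem (1, g)⟩
    rw [hψe (1, g) _ rfl] at h1
    have h2 : (ψ₁ : GL (Fin a) F → ℂ) 1 ≠ 0 := Characters.Core.isIrr_apply_one_ne_zero ψ₁.2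
    apply mul_left_cancel₀ h2
    rw [hl₂]
    linear_combination h1
  -- the label
  obtain ⟨χ₀, hχ₀, -⟩ := (isLab_bij hctx hbN hbm).2 t₂
  have hfam := famSet_eq hctx hpF h𝔐 hq hbN hbm (B := blockOf 𝔐 (χ₀ : GL (Fin b) F → ℂ)) ⟨χ₀, rfl⟩
    (Blocks.Induced.sameBlock_refl hMp _) hχ₀
  rw [hfam] at hχ₂
  have hψ₂' : ψ₂ ∈ blockOf 𝔐 (χ₀ : GL (Fin b) F → ℂ) :=
    Blocks.Basic.sameBlock_trans hχ₂ hψ₂
  have hdvd := (glLin hctx hp hpF hbN hb0).dvd_bsz h𝔐 hbm (isLab_bij hctx hbN hbm)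
    (B := blockOf 𝔐 (χ₀ : GL (Fin b) F → ℂ)) ⟨χ₀, rfl⟩ (Blocks.Induced.sameBlock_refl hMp _) hχ₀ h₂ hψ₂' hl₂S hord
    hfix₂ δ₀
  rw [hw, Nat.dvd_one] at hdvd
  obtain ⟨i', rfl⟩ := Finset.card_eq_one.1 (ho.symm.trans (hj.trans hdvd))
  exact ⟨i', hO⟩

/-- The Brauer characters of `L` over `(t₁, t₂)`, `t₂` of weight `1`, stay irreducible. -/
theorem hC_prod (hctx : Ctx F θ N M) (hpF : p ≠ ringChar F) (h𝔐 : IsPModular p 𝔐) (hV : Above 𝔐 V)
    (hq : ((Nat.card F : ℕ) : ZMod p) = 1) {a b n m : ℕ} (hn : n ≤ N) (hm : n ≤ m) (hb0 : 0 < b)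
    (e : ((Fin a → F) × (Fin b → F)) ≃ₗ[F] (Fin n → F))
    (t₁ : LabZ (Nat.card F) M m a) (t₂ : LabZ (Nat.card F) M m b) (h₂ : POnly M p t₂.t) (δ₀ : ZMod M)
    (hw : Std.bsz (t₂.t δ₀) = 1) {i : IBr V (jj (K := F) e).range}
    (hi : i ∈ ibrUnder V (prodBlk (jj (K := F) e).range (jj e) (famSet θ p t₁) (famSet θ p t₂))) :
    ∃ i' : IBr V ((pKer (slS F n) p).subgroupOf (jj (K := F) e).range),
      IsRes p ((pKer (slS F n) p).subgroupOf (jj (K := F) e).range) i {i'} :=
  hC_aux hctx hpF h𝔐 hV hq hn hm hb0 e t₁ t₂ h₂ δ₀ hw rfl hi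

end Cfsg.Agent.H166.GLB
end

-- part: H379/GLB/HC
section
/-!
# Harish-Chandra restriction of Brauer characters (helper379)

* `charpoly_mul`, `bc_add`: Brauer characters are additive;
* `fx`, `subRep`, `quoRep`: the fixed points of `U` and the quotient;
* `sum_bc`: `∑ u, bc p σ (y u) = |U| bc p (subRep ..) a`, `f a = y`;
* `hc_hom`: the average over `U` of a Brauer character is a sum of Brauer characters.
-/

set_option autoImplicit false

namespace Cfsg.Agent.H379.GLB

open Cfsg IsLocalRing Module Cfsg.Agent.H657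
open Cfsg.Agent.H699.IBrLift (isCharacter_bc exists_sum_bc)

attribute [local instance] Above.isAlgClosed

section lin

theorem charpoly_mul {K : Type*} [Field K] [Infinite K] {W : Type*} [AddCommGroup W] [Module K W]
    [FiniteDimensional K W] (U : Submodule K W) (f : Module.End K W) (h : U ≤ U.comap f) :
    LinearMap.charpoly f = LinearMap.charpoly (f.restrict h) * LinearMap.charpoly (U.mapQ U f h) := by
  refine Polynomial.funext fun t => ?_
  rw [Polynomial.eval_mul, LinearMap.eval_charpoly, LinearMap.eval_charpoly,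
    LinearMap.eval_charpoly]
  have h' : U ≤ U.comap (algebraMap K (Module.End K W) t - f) := by
    intro w hw
    rw [Submodule.mem_comap, LinearMap.sub_apply, Module.algebraMap_end_apply]
    exact U.sub_mem (U.smul_mem _ hw) (h hw)
  rw [LinearMap.det_eq_det_mul_det U _ h']
  congr 2
  refine LinearMap.ext fun x => ?_
  obtain ⟨x, rfl⟩ := Submodule.mkQ_surjective _ x
  rfl

theorem trace_idem {W : Type*} [AddCommGroup W] [Module ℂ W] [FiniteDimensional ℂ W]
    (P : Module.End ℂ W) (hP : P * P = P) (h : LinearMap.trace ℂ W P = 0) : P = 0 := by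
  have h1 : LinearMap.IsProj (LinearMap.range P) P := by
    refine ⟨fun x => LinearMap.mem_range_self _ _, ?_⟩
    rintro _ ⟨x, rfl⟩
    exact LinearMap.congr_fun hP x
  have h2 := h1.trace
  rw [h] at h2
  have h3 : finrank ℂ (LinearMap.range P) = 0 := by exact_mod_cast h2.symm
  rw [← LinearMap.range_eq_bot]
  exact Submodule.finrank_eq_zero.1 h3

/-- a character whose restriction to `U` has no trivial constituent -/
theorem sum_mul_eq_zero {H : Type*} [Group H] [Finite H] {θ : H → ℂ} (hθ : IsCharacter H θ)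
    (U : Subgroup H) [Fintype U] (h0 : ∑ u : U, θ u = 0) (x : H) : ∑ u : U, θ (x * u) = 0 := by
  obtain ⟨n, ρ, rfl⟩ := hθ
  set e : Module.End ℂ (Fin n → ℂ) := ∑ u : U, ρ u with he
  have hc : (Fintype.card U : ℂ) ≠ 0 := Nat.cast_ne_zero.2 Fintype.card_ne_zero
  have hee : e * e = (Fintype.card U : ℂ) • e := by
    have h1 : ∀ u : U, ρ u * e = e := by
      intro u
      rw [he, Finset.mul_sum]
      refine Fintype.sum_equiv (Equiv.mulLeft u) _ _ fun v => ?_
      rw [Equiv.coe_mulLeft, ← map_mul, Subgroup.coe_mul]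
    conv_lhs => rw [he]
    rw [Finset.sum_mul, Finset.sum_congr rfl fun u _ => h1 u, Finset.sum_const, Finset.card_univ,
      Nat.cast_smul_eq_nsmul]
  have htr : LinearMap.trace ℂ _ e = 0 := by
    rw [he, map_sum]
    exact h0
  have h2 : (Fintype.card U : ℂ)⁻¹ • e = 0 := by
    refine trace_idem _ ?_ ?_
    · rw [smul_mul_smul_comm, hee, smul_smul, mul_assoc, inv_mul_cancel₀ hc, mul_one]
    · rw [map_smul, htr, smul_zero]
  have h3 : e = 0 := (smul_eq_zero.1 h2).resolve_left (inv_ne_zero hc)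
  have h4 : ∑ u : U, ρ.character (x * u) = LinearMap.trace ℂ _ (ρ x * e) := by
    rw [he, Finset.mul_sum, map_sum]
    refine Finset.sum_congr rfl fun u _ => ?_
    rw [← map_mul]
    rfl
  rw [h4, h3, mul_zero, map_zero]

end lin

section rep

variable {K : Type*} [Field K] {G A : Type*} [Group G] [Group A] {W : Type*} [AddCommGroup W]
  [Module K W]

/-- the fixed points of `U` -/
def fx (σ : Representation K G W) (U : Subgroup G) : Submodule K W where
  carrier := {w | ∀ u ∈ U, σ u w = w}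
  add_mem' := fun {a b} ha hb u hu => by rw [map_add, ha u hu, hb u hu]
  zero_mem' := fun u _ => map_zero _
  smul_mem' := fun c a ha u hu => by rw [map_smul, ha u hu]

theorem mem_fx {σ : Representation K G W} {U : Subgroup G} {w : W} :
    w ∈ fx σ U ↔ ∀ u ∈ U, σ u w = w := Iff.rfl

/-- `f` normalizes `U` -/
def Nz (f : A →* G) (U : Subgroup G) : Prop := ∀ a, ∀ u ∈ U, f a * u * (f a)⁻¹ ∈ U

theorem Nz.map_mem {σ : Representation K G W} {U : Subgroup G} {f : A →* G} (hf : Nz f U) (a : A) :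
    fx σ U ≤ (fx σ U).comap (σ (f a)) := by
  intro w hw u hu
  have h1 : (f a)⁻¹ * u * f a ∈ U := by
    have := hf a⁻¹ u hu
    rwa [map_inv, inv_inv] at this
  have h2 : σ u (σ (f a) w) = σ (f a) (σ ((f a)⁻¹ * u * f a) w) := by
    rw [← Module.End.mul_apply, ← Module.End.mul_apply, ← map_mul, ← map_mul]
    congr 2
    group
  rw [h2, hw _ h1]

/-- the action on the fixed points -/
def subRep (σ : Representation K G W) {U : Subgroup G} {f : A →* G} (hf : Nz f U) :
    Representation K A (fx σ U) where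
  toFun a := (σ (f a)).restrict (hf.map_mem (σ := σ) a)
  map_one' := by
    ext w
    simp
  map_mul' a b := by
    ext w
    simp

/-- the action on the quotient -/
def quoRep (σ : Representation K G W) {U : Subgroup G} {f : A →* G} (hf : Nz f U) :
    Representation K A (W ⧸ fx σ U) where
  toFun a := (fx σ U).mapQ (fx σ U) (σ (f a)) (hf.map_mem (σ := σ) a)
  map_one' := by
    ext w
    simp
  map_mul' a b := by
    ext w
    simp

theorem invariants_quoRep (σ : Representation K G W) (U : Subgroup G) [Fintype U]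
    (hU : (Fintype.card U : K) ≠ 0) (hf : Nz U.subtype U) :
    (quoRep σ hf).invariants = ⊥ := by
  rw [eq_bot_iff]
  intro w hw
  obtain ⟨w, rfl⟩ := Submodule.mkQ_surjective _ w
  have h1 : ∀ u : U, σ u w - w ∈ fx σ U := by
    intro u
    have h2 : (quoRep σ hf) u ((fx σ U).mkQ w) = (fx σ U).mkQ w := hw u
    exact (Submodule.Quotient.eq _).1 h2
  rw [Submodule.mem_bot]
  show Submodule.Quotient.mk w = 0
  rw [Submodule.Quotient.mk_eq_zero]
  have h3 : ∑ u : U, σ u w ∈ fx σ U := by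
    intro v hv
    rw [map_sum]
    refine Fintype.sum_equiv (Equiv.mulLeft (⟨v, hv⟩ : U)) _ _ fun u => ?_
    rw [Equiv.coe_mulLeft, Subgroup.coe_mul, map_mul, Module.End.mul_apply]
  have h4 : (Fintype.card U : K) • w ∈ fx σ U := by
    have h5 : (Fintype.card U : K) • w = ∑ u : U, σ u w - ∑ u : U, (σ u w - w) := by
      rw [Finset.sum_sub_distrib, sub_sub_cancel, Finset.sum_const, Finset.card_univ,
        Nat.cast_smul_eq_nsmul]
    rw [h5]
    exact (fx σ U).sub_mem h3 ((fx σ U).sum_mem fun u _ => h1 u)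
  have h6 := (fx σ U).smul_mem (Fintype.card U : K)⁻¹ h4
  rwa [smul_smul, inv_mul_cancel₀ hU, one_smul] at h6

end rep

section grp

variable {G : Type*} [Group G]

/-- the group generated by `y` and a subgroup normalized by `y` -/
def ext (y : G) (U : Subgroup G) (hy : ∀ n : ℤ, ∀ u ∈ U, y ^ n * u * (y ^ n)⁻¹ ∈ U) : Subgroup G where
  carrier := {h | ∃ n : ℤ, ∃ u ∈ U, h = y ^ n * u}
  one_mem' := ⟨0, 1, U.one_mem, by simp⟩
  mul_mem' := by
    rintro _ _ ⟨n, u, hu, rfl⟩ ⟨m, v, hv, rfl⟩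
    refine ⟨n + m, (y ^ (-m) * u * (y ^ (-m))⁻¹) * v, U.mul_mem (hy _ _ hu) hv, ?_⟩
    rw [zpow_add, zpow_neg, inv_inv]
    group
  inv_mem' := by
    rintro _ ⟨n, u, hu, rfl⟩
    refine ⟨-n, y ^ n * u⁻¹ * (y ^ n)⁻¹, hy _ _ (U.inv_mem hu), ?_⟩
    rw [zpow_neg]
    group

theorem zpow_norm {y : G} {U : Subgroup G} (h1 : ∀ u ∈ U, y * u * y⁻¹ ∈ U)
    (h2 : ∀ u ∈ U, y⁻¹ * u * y ∈ U) (n : ℤ) : ∀ u ∈ U, y ^ n * u * (y ^ n)⁻¹ ∈ U := by
  have hpos : ∀ n : ℕ, ∀ u ∈ U, y ^ n * u * (y ^ n)⁻¹ ∈ U := by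
    intro n
    induction n with
    | zero => intro u hu; simpa using hu
    | succ n ih =>
      intro u hu
      have := h1 _ (ih u hu)
      rw [pow_succ']
      convert this using 1
      group
  have hneg : ∀ n : ℕ, ∀ u ∈ U, (y ^ n)⁻¹ * u * y ^ n ∈ U := by
    intro n
    induction n with
    | zero => intro u hu; simpa using hu
    | succ n ih =>
      intro u hu
      have := h2 _ (ih u hu)
      rw [pow_succ]
      convert this using 1
      group
  intro u hu
  obtain ⟨m, rfl | rfl⟩ := n.eq_nat_or_neg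
  · rw [zpow_natCast]
    exact hpos m u hu
  · rw [zpow_neg, zpow_natCast, inv_inv]
    exact hneg m u hu

theorem pow_mem_of_norm {y : G} {U : Subgroup G} (h1 : ∀ u ∈ U, y * u * y⁻¹ ∈ U) {u : G}
    (hu : u ∈ U) (n : ℕ) : ∃ v ∈ U, (u * y) ^ n = v * y ^ n := by
  induction n with
  | zero => exact ⟨1, U.one_mem, by simp⟩
  | succ n ih =>
    obtain ⟨v, hv, h⟩ := ih
    have hpos : ∀ n : ℕ, ∀ u ∈ U, y ^ n * u * (y ^ n)⁻¹ ∈ U := by
      intro n
      induction n with
      | zero => intro u hu; simpa using hu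
      | succ n ih =>
        intro u hu
        have := h1 _ (ih u hu)
        rw [pow_succ']
        convert this using 1
        group
    refine ⟨v * (y ^ n * u * (y ^ n)⁻¹), U.mul_mem hv (hpos n u hu), ?_⟩
    rw [pow_succ, h, pow_succ]
    group

theorem isPRegular_mul [Finite G] {p : ℕ} (hp : p.Prime) {y : G} {U : Subgroup G}
    (hU : (Nat.card U).Coprime p) (h1 : ∀ u ∈ U, y * u * y⁻¹ ∈ U) (hy : IsPRegular p y) {u : G}
    (hu : u ∈ U) : IsPRegular p (y * u) := by
  intro hd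
  have h2 : y * u = (y * u * y⁻¹) * y := by group
  rw [h2] at hd
  obtain ⟨v, hv, h3⟩ := pow_mem_of_norm h1 (h1 u hu) (orderOf y)
  rw [pow_orderOf_eq_one, mul_one] at h3
  have h4 : (y * u * y⁻¹ * y) ^ (orderOf y * Nat.card U) = 1 := by
    rw [pow_mul, h3]
    have : (⟨v, hv⟩ : U) ^ Nat.card U = 1 := pow_card_eq_one'
    exact congrArg Subtype.val this
  have h5 := hd.trans (orderOf_dvd_of_pow_eq_one h4)
  rcases hp.dvd_mul.1 h5 with h6 | h6
  · exact hy h6
  · exact (hp.coprime_iff_not_dvd.1 hU.symm) h6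

theorem not_dvd_card_ext [Finite G] {p : ℕ} (hp : p.Prime) {y : G} {U : Subgroup G}
    (hU : (Nat.card U).Coprime p) (hy : IsPRegular p y)
    (h : ∀ n : ℤ, ∀ u ∈ U, y ^ n * u * (y ^ n)⁻¹ ∈ U) : ¬ p ∣ Nat.card (ext y U h) := by
  intro hd
  have := Fact.mk hp
  obtain ⟨⟨x, n, u, hu, rfl⟩, hx⟩ := exists_prime_orderOf_dvd_card' p hd
  rw [← Subgroup.orderOf_coe] at hx
  have h1 : IsPRegular p (y ^ n) := by
    intro h2
    have h3 : orderOf (y ^ n) ∣ orderOf y := by
      rw [orderOf_dvd_iff_pow_eq_one, ← zpow_natCast, ← zpow_mul, mul_comm, zpow_mul,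
        zpow_natCast, pow_orderOf_eq_one, one_zpow]
    exact hy (h2.trans h3)
  exact isPRegular_mul hp hU (h n) h1 hu (by rw [hx])

end grp

section main

variable {V : ValuationSubring ℂ} {p : ℕ} {M : Ideal AlgInt}

theorem mapQ_congr {K : Type*} [Field K] {W : Type*} [AddCommGroup W] [Module K W] (U : Submodule K W)
    {f g : Module.End K W} (hf : U ≤ U.comap f) (hg : U ≤ U.comap g) (h : f = g) :
    U.mapQ U f hf = U.mapQ U g hg := by
  subst h
  rfl

theorem bc_add [Infinite (ResidueField V)] {G A B W : Type*} [Group G] [Group A] [Group B]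
    [AddCommGroup W] [Module (ResidueField V) W] [FiniteDimensional (ResidueField V) W]
    (σ : Representation (ResidueField V) G W) {U : Subgroup G} {f : A →* G} (hf : Nz f U)
    {f' : B →* G} (hf' : Nz f' U) {g : G} {a : A} {b : B} (ha : f a = g) (hb : f' b = g) :
    bc p σ g = bc p (subRep σ hf) a + bc p (quoRep σ hf') b := by
  unfold bc
  subst ha
  rw [charpoly_mul (fx σ U) (σ (f a)) (hf.map_mem a), Polynomial.roots_mul
    (mul_ne_zero (LinearMap.charpoly_monic _).ne_zero (LinearMap.charpoly_monic _).ne_zero),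
    Multiset.map_add, Multiset.sum_add]
  have h : (quoRep σ hf') b = (fx σ U).mapQ (fx σ U) (σ (f a)) (hf.map_mem a) :=
    mapQ_congr (fx σ U) (hf'.map_mem b) (hf.map_mem a) (by rw [hb])
  rw [h]
  rfl

/-- The average over `U` of the Brauer character of a representation. -/
theorem sum_bc {G A W : Type*} [Group G] [Finite G] [Group A] (hM : IsPModular p M)
    (hV : Above M V) [AddCommGroup W] [Module (ResidueField V) W]
    [FiniteDimensional (ResidueField V) W] (σ : Representation (ResidueField V) G W)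
    {U : Subgroup G} [Fintype U] (hU : (Fintype.card U).Coprime p) {f : A →* G} (hf : Nz f U) {a : A}
    (ha : IsPRegular p (f a)) :
    ∑ u : U, bc p σ (f a * u) = (Fintype.card U : ℂ) * bc p (subRep σ hf) a := by
  have : Fact p.Prime := ⟨hM.1⟩
  have : CharP (ResidueField V) p := hV.charP hM
  have hinf : Infinite (ResidueField V) := IsAlgClosed.instInfinite
  have hU' : (Nat.card U).Coprime p := by rwa [Nat.card_eq_fintype_card]
  set y := f a with hy
  have h1 : ∀ n : ℤ, ∀ u ∈ U, y ^ n * u * (y ^ n)⁻¹ ∈ U := by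
    intro n u hu
    have := hf (a ^ n) u hu
    rwa [map_zpow] at this
  let H := ext y U h1
  have hH : ¬ p ∣ Nat.card H := not_dvd_card_ext hM.1 hU' ha h1
  have hUH : U ≤ H := fun u hu => ⟨0, u, hu, by simp⟩
  have hyH : y ∈ H := ⟨1, 1, U.one_mem, by simp⟩
  have hn : Nz H.subtype U := by
    rintro ⟨x, n, v, hv, rfl⟩ u hu
    have h2 := h1 n _ (U.mul_mem (U.mul_mem hv hu) (U.inv_mem hv))
    show y ^ n * v * u * (y ^ n * v)⁻¹ ∈ U
    convert h2 using 1
    group
  have hn' : Nz U.subtype U := fun v u hu => U.mul_mem (U.mul_mem v.2 hu) (U.inv_mem v.2)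
  -- the quotient part
  have hc : (Fintype.card U : ResidueField V) ≠ 0 := by
    intro h
    have h1 := (CharP.cast_eq_zero_iff (ResidueField V) p _).1 h
    exact (Fact.out : p.Prime).coprime_iff_not_dvd.1 hU.symm h1
  have h0 : ∑ u : U, bc p (quoRep σ hn') u = 0 := by
    rw [H597.BrInv.C hM hV hU (quoRep σ hn'), invariants_quoRep σ U hc hn', finrank_bot,
      Nat.cast_zero, mul_zero]
  have hθ : IsCharacter H (bc p (quoRep σ hn)) := isCharacter_bc hM hV hH (quoRep σ hn)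
  have : Fintype (U.subgroupOf H) := Fintype.ofFinite _
  have h2 : ∀ u : U, bc p (quoRep σ hn) ⟨u, hUH u.2⟩ = bc p (quoRep σ hn') u := fun u => rfl
  have h3 : ∑ u : U.subgroupOf H, bc p (quoRep σ hn) u = 0 := by
    rw [← h0]
    refine Fintype.sum_equiv (Subgroup.subgroupOfEquivOfLe hUH).toEquiv _ _ fun u => ?_
    rfl
  have h4 := sum_mul_eq_zero hθ (U.subgroupOf H) h3 ⟨y, hyH⟩
  have h5 : ∑ u : U, bc p (quoRep σ hn) ⟨y * u, H.mul_mem hyH (hUH u.2)⟩ = 0 := by
    rw [← h4]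
    refine Fintype.sum_equiv (Subgroup.subgroupOfEquivOfLe hUH).symm.toEquiv _ _ fun u => ?_
    rfl
  have h6 : ∀ u : U, bc p σ (y * u) = bc p (subRep σ hn) ⟨y * u, H.mul_mem hyH (hUH u.2)⟩ +
      bc p (quoRep σ hn) ⟨y * u, H.mul_mem hyH (hUH u.2)⟩ := fun u => bc_add σ hn hn rfl rfl
  rw [Finset.sum_congr rfl fun u _ => h6 u, Finset.sum_add_distrib, h5, add_zero]
  have h7 : ∀ u : U, bc p (subRep σ hn) ⟨y * u, H.mul_mem hyH (hUH u.2)⟩ = bc p (subRep σ hf) a := by
    intro u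
    have h8 : (subRep σ hn) ⟨y * u, H.mul_mem hyH (hUH u.2)⟩ = (subRep σ hf) a := by
      ext w
      show σ (y * u) w = σ (f a) w
      rw [map_mul, Module.End.mul_apply, w.2 u u.2]
    unfold bc
    rw [h8]
  rw [Finset.sum_congr rfl fun u _ => h7 u, Finset.sum_const, Finset.card_univ, nsmul_eq_mul]

/-- **The average over `U` of a Brauer character of `G` is a sum of Brauer characters.** -/
theorem hc_hom {G A : Type*} [Group G] [Finite G] [Group A] (hM : IsPModular p M)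
    (hV : Above M V) {U : Subgroup G} [Fintype U] (hU : (Fintype.card U).Coprime p) {f : A →* G}
    (hf : Nz f U) (i : IBr V G) :
    ∃ (n : ℕ) (idx : Fin n → IBr V A), ∀ a, IsPRegular p a → 
      ∑ u : U, phi p i (f a * u) = (Fintype.card U : ℂ) * ∑ l, phi p (idx l) a := by
  have : Fact p.Prime := ⟨hM.1⟩
  have : CharP (ResidueField V) p := hV.charP hM
  have hU' : (Nat.card U).Coprime p := by rwa [Nat.card_eq_fintype_card]
  obtain ⟨n, idx, h⟩ := exists_sum_bc (p := p) (subRep i.rep hf)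
  refine ⟨n, idx, fun a ha => ?_⟩
  have hfa : IsPRegular p (f a) := fun h => ha (h.trans (orderOf_map_dvd f a))
  rw [← h a ha, ← sum_bc hM hV i.rep hU hf hfa]
  refine Finset.sum_congr rfl fun u _ => ?_
  exact phi_of i (isPRegular_mul hM.1 hU' (hf a) hfa u.2)

end main

end Cfsg.Agent.H379.GLB
end

-- part: H614/GLn/HBC
section
/-!
# P5GL, hBC: the Harish-Chandra restriction of the characters over one orbit
-/

set_option autoImplicit false

open scoped ComplexConjugate TensorProduct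

universe u

namespace Cfsg.Agent.H614.GLn.RSt

open MvPolynomial Cfsg Cfsg.Agent Cfsg.Agent.H614 Cfsg.Agent.H577.GLB.Std Cfsg.Agent.H614.GLn
open Cfsg.Agent.H577.GLB.Real (OnlyOn)
open Cfsg.Agent.H505.S4536.DC (pu Sf Sf_same sum_Sf sfun_eq pReg_iff sum_orbit Sf_eq_zero)

/-! ### multidegrees -/

section deg

variable {Q : ℤ} {M : ℕ} {m : ℕ}

open Classical in
/-- the degree in the variables with label `c` -/
noncomputable def wc (M : ℕ) (c : ZMod M) : Var M → ℕ := fun v => if v.2 = c then v.1 else 0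

theorem whomc_Pw {c c' : ZMod M} (hc : canon Q M c = c) (j : ℕ) :
    IsWeightedHomogeneous (wc M c') (Pw Q M j c) (j * (wc M c' (perZ Q M c, c))) := by
  classical
  unfold Pw rv
  split_ifs with h
  · convert isWeightedHomogeneous_X ℂ (wc M c') (j * perZ Q M c, canon Q M c) using 1
    unfold wc
    simp only [hc]
    split_ifs
    · rfl
    · rw [mul_zero]
  · exact isWeightedHomogeneous_zero ℂ (wc M c') _

theorem whomc_SS {c c' : ZMod M} (hc : canon Q M c = c) (k : ℕ) (β : Fin m → ℕ) :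
    IsWeightedHomogeneous (wc M c') (SS (fun j => Pw Q M j c) k β) (k * (wc M c' (perZ Q M c, c))) := by
  have h1 : ∀ s : Multiset ℕ, IsWeightedHomogeneous (wc M c') ((s.map fun j => Pw Q M j c).prod)
      (s.sum * (wc M c' (perZ Q M c, c))) := by
    intro s
    induction s using Multiset.induction_on with
    | empty => simpa using isWeightedHomogeneous_one ℂ (wc M c')
    | cons a s ih =>
      rw [Multiset.map_cons, Multiset.prod_cons, Multiset.sum_cons, add_mul]
      exact (whomc_Pw hc a).mul ih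
  rw [← mem_weightedHomogeneousSubmodule]
  unfold SS ZV
  refine Submodule.sum_mem _ fun ν _ => Submodule.smul_mem _ _ (Submodule.smul_mem _ _ ?_)
  rw [mem_weightedHomogeneousSubmodule]
  have := h1 ν.parts
  rwa [ν.parts_sum] at this

variable [NeZero M]

theorem whomc_SchP (t : ZMod M → Fin m → ℕ) {c' : ZMod M} (hc' : c' ∈ repsZ Q M) :
    IsWeightedHomogeneous (wc M c') (SchP Q M t) (H577.GLB.Std.bsz (t c') * perZ Q M c') := by
  classical
  rw [SchP_eq]
  have h := IsWeightedHomogeneous.prod (repsZ Q M) _ _ fun c (hc : c ∈ repsZ Q M) =>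
    whomc_SS (c' := c') (mem_repsZ.1 hc) (H577.GLB.Std.bsz (t c)) (t c)
  rw [Finset.sum_eq_single c'] at h
  · have h2 : wc M c' (perZ Q M c', c') = perZ Q M c' := if_pos rfl
    rw [h2] at h
    exact h
  · intro c _ hne
    have h2 : wc M c' (perZ Q M c, c) = 0 := if_neg hne
    rw [h2, mul_zero]
  · intro h2; exact absurd hc' h2

theorem form_eq_zero_of_weight {w : Var M → ℕ} {P P' : RS M} {a b : ℕ} (hP : IsWeightedHomogeneous w P a)
    (hP' : IsWeightedHomogeneous w P' b) (hab : a ≠ b) : form Q M P P' = 0 := by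
  unfold form
  refine Finset.sum_eq_zero fun s hs => ?_
  have h1 : P'.coeff s = 0 := by
    by_contra h2
    exact hab ((hP (mem_support_iff.1 hs)).symm.trans (hP' h2))
  rw [h1, map_zero, mul_zero, zero_mul]

/-- the multidegrees add -/
theorem bsz_add_of_form_ne_zero (hQ : IsUnit (Q : ZMod M)) {n a b : ℕ} (t : LabZ Q M m n) (t₁ : LabZ Q M m a)
    (t₂ : LabZ Q M m b) (h : form Q M (SchP Q M t.t) (SchP Q M t₁.t * SchP Q M t₂.t) ≠ 0) (c : ZMod M) :
    H577.GLB.Std.bsz (t.t c) = H577.GLB.Std.bsz (t₁.t c) + H577.GLB.Std.bsz (t₂.t c) := by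
  by_contra hne
  apply h
  have hc := canon_mem_repsZ hQ c
  refine form_eq_zero_of_weight (whomc_SchP t.t hc) ((whomc_SchP t₁.t hc).mul (whomc_SchP t₂.t hc)) ?_
  rw [← add_mul, t_canon t.t t.orb, t_canon t₁.t t₁.orb, t_canon t₂.t t₂.orb]
  intro h2
  exact hne (Nat.eq_of_mul_eq_mul_right (perZ_pos hQ _) h2)

end deg

/-! ### families over one orbit -/

section fam

variable {Q : ℤ} {M : ℕ} [NeZero M] {p m : ℕ}

theorem pu_reg (hp : p.Prime) (c : ZMod M) : PReg M p (pu M p * c) :=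
  (pReg_iff hp _).2 (H505.S4536.DC.pu_pu hp c)

theorem le_Sf (t : ZMod M → Fin m → ℕ) (c : ZMod M) : H577.GLB.Std.bsz (t c) ≤ Sf M p t (pu M p * c) := by
  classical
  rw [Sf]
  exact Finset.single_le_sum (f := fun c => H577.GLB.Std.bsz (t c)) (fun _ _ => Nat.zero_le _)
    (Finset.mem_filter.2 ⟨Finset.mem_univ c, rfl⟩)

/-- the labels of the members of a family over one orbit -/
theorem over_of_sameFam (hp : p.Prime) {t₀ t : ZMod M → Fin m → ℕ} {δ₀ : ZMod M} (h₀ : POnly M p t₀)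
    (h₁ : OnlyOn Q M δ₀ t₀) (h : SameFam Q M p t₀ t) (c : ZMod M) (hc : 0 < H577.GLB.Std.bsz (t c)) :
    SameZ Q M δ₀ (pu M p * c) := by
  have hr := pu_reg (M := M) hp c
  have h1 := (h _ hr).1
  rw [sfun_eq hp t hr, H157.GLB.sfun_of_pOnly hp h₀ hr] at h1
  refine h₁ _ ?_
  rw [h1]
  exact hc.trans_le (le_Sf t c)

theorem Sf_zero {t : ZMod M → Fin m → ℕ} {δ₀ δ : ZMod M}
    (h : ∀ c, 0 < H577.GLB.Std.bsz (t c) → SameZ Q M δ₀ (pu M p * c)) (hδ : ¬ SameZ Q M δ₀ δ) : Sf M p t δ = 0 := by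
  classical
  rw [Sf]
  refine Finset.sum_eq_zero fun c hc => ?_
  rw [Finset.mem_filter] at hc
  by_contra h1
  apply hδ
  rw [← hc.2]
  exact h c (Nat.pos_of_ne_zero h1)

theorem perZ_mul_Sf (hQ : IsUnit (Q : ZMod M)) {n : ℕ} (t : LabZ Q M m n) {δ₀ δ : ZMod M}
    (h : ∀ c, 0 < H577.GLB.Std.bsz (t.t c) → SameZ Q M δ₀ (pu M p * c)) (hδ : SameZ Q M δ₀ δ) :
    perZ Q M δ * Sf M p t.t δ = n := by
  have h1 := sum_Sf (p := p) t.t
  rw [t.sum, sum_orbit hQ _ fun c c' hcc => Sf_same hQ t.orb hcc,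
    Finset.sum_eq_single (canon Q M δ)] at h1
  · rwa [← perZ_of_same hQ (sameZ_canon δ), Sf_same hQ t.orb (sameZ_canon δ)] at h1
  · intro c hc hne
    rw [Sf_zero h, mul_zero]
    intro h2
    apply hne
    rw [← mem_repsZ.1 hc]
    exact (canon_eq_of_same hQ (SameZ.trans' (SameZ.symm' hQ hδ) h2)).symm
  · intro h2
    exact absurd (canon_mem_repsZ hQ δ) h2

theorem sameCol_one (β γ : Fin m → ℕ) : SameCol 1 β γ := by
  intro i
  unfold res
  simp only [Nat.mod_one]

/-- two labels over the same orbit are in the same family -/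
theorem sameFam_of_over (hp : p.Prime) (hQ : IsUnit (Q : ZMod M)) (hQp : (Q : ZMod p) = 1) {n : ℕ}
    (t t' : LabZ Q M m n) {δ₀ : ZMod M} (h : ∀ c, 0 < H577.GLB.Std.bsz (t.t c) → SameZ Q M δ₀ (pu M p * c))
    (h' : ∀ c, 0 < H577.GLB.Std.bsz (t'.t c) → SameZ Q M δ₀ (pu M p * c)) : SameFam Q M p t.t t'.t := by
  intro δ hδ
  refine ⟨?_, ?_⟩
  · rw [sfun_eq hp _ hδ, sfun_eq hp _ hδ]
    by_cases h1 : SameZ Q M δ₀ δ
    · exact Nat.eq_of_mul_eq_mul_left (perZ_pos hQ δ)
        ((perZ_mul_Sf hQ t h h1).trans (perZ_mul_Sf hQ t' h' h1).symm)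
    · rw [Sf_zero h h1, Sf_zero h' h1]
  · have h1 : eD Q M p δ = 1 := by
      rw [eD, hQp, one_pow, orderOf_one]
    rw [h1]
    exact sameCol_one _ _

theorem over_of_pOnly (hp : p.Prime) {t₀ : ZMod M → Fin m → ℕ} {δ₀ : ZMod M} (h₀ : POnly M p t₀)
    (h₁ : OnlyOn Q M δ₀ t₀) (c : ZMod M) (hc : 0 < H577.GLB.Std.bsz (t₀ c)) : SameZ Q M δ₀ (pu M p * c) := by
  have h1 : PReg M p c := by
    by_contra h2
    exact absurd (h₀ c h2) hc.ne'
  rw [(pReg_iff hp c).1 h1]
  exact h₁ c hc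

end fam

/-! ### class functions -/

section chars

open Cfsg.Agent.H577.GLB.Real Cfsg.Agent.H577.GLB Cfsg.Agent.H624.Sl Cfsg.Agent.H657 Cfsg.Agent.H608.BlockRank
open Cfsg.Agent.H623.GLn (evT)
open scoped MatrixGroups

/-- the Harish-Chandra restriction of a class function is a class function -/
theorem isClassFunction_hcRes {G : Type u} [Group G] [Finite G] (L U : Subgroup G)
    (hLU : ∀ l ∈ L, ∀ u ∈ U, l * u * l⁻¹ ∈ U) {f : G → ℂ} (hf : IsClassFunction G f) :
    IsClassFunction L (hcRes L U f) := by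
  intro x l
  unfold hcRes
  congr 1
  let σ : U ≃ U :=
    { toFun := fun u => ⟨(l : G) * u * (l : G)⁻¹, hLU l l.2 u u.2⟩
      invFun := fun u => ⟨(l : G)⁻¹ * u * ((l : G)⁻¹)⁻¹, hLU _ (L.inv_mem l.2) u u.2⟩
      left_inv := fun u => Subtype.ext (by simp [mul_assoc])
      right_inv := fun u => Subtype.ext (by simp [mul_assoc]) }
  rw [← finsum_comp_equiv σ]
  refine finsum_congr fun u => ?_
  rw [← hf ((x : G) * u) (l : G)]
  congr 1
  show ((l * x * l⁻¹ : L) : G) * ((l : G) * u * (l : G)⁻¹) = _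
  push_cast
  group

variable {F : Type u} [Field F] [Finite F] {K : Type u} [Field K] [Algebra F K] {θ : K →*₀ ℂ} {N M : ℕ} [NeZero M]
  {p : ℕ} {𝔐 : Ideal AlgInt} {V : ValuationSubring ℂ}

/-- the inner product of an outer product of functions -/
theorem classInner_evT {a b : ℕ} {L : Type u} [Group L] [Fintype L] (e' : GL (Fin a) F × GL (Fin b) F ≃* L)
    [Fintype (GL (Fin a) F)] [Fintype (GL (Fin b) F)]
    (f ψ : L → ℂ) (w : RS M ⊗[ℂ] RS M)
    (hf : ∀ x : GL (Fin a) F × GL (Fin b) F, f (e' x) =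
      evT (V₁ := Fin a → F) (V₂ := Fin b → F) θ M (Matrix.toLin' x.1.1) (Matrix.toLin' x.2.1) w)
    (χ₁ : GL (Fin a) F → ℂ) (χ₂ : GL (Fin b) F → ℂ) (hψ : ∀ x, ψ (e' x) = χ₁ x.1 * χ₂ x.2)
    (l₁ l₂ : RS M →ₗ[ℂ] ℂ) (hl₁ : ∀ x, l₁ x = classInner (Om (F := F) θ M a x) χ₁)
    (hl₂ : ∀ x, l₂ x = classInner (Om (F := F) θ M b x) χ₂) :
    classInner f ψ = LinearMap.mul' ℂ ℂ (TensorProduct.map l₁ l₂ w) := by
  have h1 : classInner f ψ = classInner (fun x : GL (Fin a) F × GL (Fin b) F => f (e' x))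
      (fun x => χ₁ x.1 * χ₂ x.2) := by
    rw [Characters.Core.classInner_def, Characters.Core.classInner_def, Nat.card_congr e'.toEquiv]
    congr 1
    refine (Fintype.sum_equiv e'.toEquiv _ _ fun x => ?_).symm
    show f (e' x) * conj (χ₁ x.1 * χ₂ x.2) = f (e' x) * conj (ψ (e' x))
    rw [hψ]
  rw [h1]
  have h2 : (fun x : GL (Fin a) F × GL (Fin b) F => f (e' x)) = fun x =>
      evT (V₁ := Fin a → F) (V₂ := Fin b → F) θ M (Matrix.toLin' x.1.1) (Matrix.toLin' x.2.1) w :=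
    funext hf
  rw [h2]
  clear h1 h2 hf
  induction w with
  | zero =>
    simp only [map_zero]
    exact Characters.Core.classInner_zero_left _
  | add w w' hw hw' =>
    simp only [map_add]
    rw [← hw, ← hw', ← Characters.Core.classInner_add_left]
    rfl
  | tmul x y =>
    rw [TensorProduct.map_tmul, LinearMap.mul'_apply, hl₁, hl₂, S0188.classInner_outer]
    have h3 : (fun h : GL (Fin b) F => classInner (fun g : GL (Fin a) F =>
        evT (V₁ := Fin a → F) (V₂ := Fin b → F) θ M (Matrix.toLin' g.1) (Matrix.toLin' h.1) (x ⊗ₜ[ℂ] y)) χ₁) =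
        classInner (Om (F := F) θ M a x) χ₁ • Om (F := F) θ M b y := by
      funext h
      have h4 : (fun g : GL (Fin a) F => evT (V₁ := Fin a → F) (V₂ := Fin b → F) θ M (Matrix.toLin' g.1)
          (Matrix.toLin' h.1) (x ⊗ₜ[ℂ] y)) = (Om (F := F) θ M b y h) • Om (F := F) θ M a x := by
        funext g
        rw [H623.GLn.evT_tmul, Pi.smul_apply, smul_eq_mul, mul_comm]
        rfl
      rw [h4, Characters.Core.classInner_smul_left, Pi.smul_apply, smul_eq_mul, mul_comm]
    rw [h3, Characters.Core.classInner_smul_left]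

/-- **The pairing**: the multiplicities of the Harish-Chandra restriction -/
theorem classInner_hcRes (hctx : Ctx F θ N M) {a b n m : ℕ} (ha : a ≤ N) (hb : b ≤ N)
    (e : ((Fin a → F) × (Fin b → F)) ≃ₗ[F] (Fin n → F)) (U : Subgroup (GL (Fin n) F))
    (hHC : ∀ (x : RS M) (A : GL (Fin a) F) (B : GL (Fin b) F) (h : (jj (K := F) e).range), jj e (A, B) = h →
      hcRes (jj (K := F) e).range U (Om θ M n x) h = evT θ M (Matrix.toLin' A.1) (Matrix.toLin' B.1) (coP M x))
    [Fintype (jj (K := F) e).range] {x : RS M} (hx : x ∈ GenR (Nat.card F : ℤ) M)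
    {ψ : (jj (K := F) e).range → ℂ} {χ₁ : GL (Fin a) F → ℂ} {χ₂ : GL (Fin b) F → ℂ}
    (hψ : ∀ (y : GL (Fin a) F × GL (Fin b) F) (h : (jj (K := F) e).range), jj e y = h → ψ h = χ₁ y.1 * χ₂ y.2)
    {t₁ : LabZ (Nat.card F) M m a} {t₂ : LabZ (Nat.card F) M m b} {s₁ s₂ : ℂ} (hs₁ : s₁ ≠ 0) (hs₂ : s₂ ≠ 0)
    (h₁ : Om (F := F) θ M a (SchP (Nat.card F) M t₁.t) = s₁ • χ₁)
    (h₂ : Om (F := F) θ M b (SchP (Nat.card F) M t₂.t) = s₂ • χ₂) :
    classInner (hcRes (jj (K := F) e).range U (Om θ M n x)) ψ =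
      (conj s₁)⁻¹ * (conj s₂)⁻¹ * form (Nat.card F : ℤ) M x (SchP (Nat.card F) M t₁.t * SchP (Nat.card F) M t₂.t) := by
  have := Fintype.ofFinite (GL (Fin a) F)
  have := Fintype.ofFinite (GL (Fin b) F)
  have hQ := H112.GLB.isUnit_card hctx
  let e' : GL (Fin a) F × GL (Fin b) F ≃* (jj (K := F) e).range := MonoidHom.ofInjective (H901.Sl.jj_injective e)
  have he' : ∀ x, jj (K := F) e x = (e' x : GL (Fin n) F) := fun x => rfl
  have hχ₁ : χ₁ = s₁⁻¹ • Om (F := F) θ M a (SchP (Nat.card F) M t₁.t) := by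
    rw [h₁, smul_smul, inv_mul_cancel₀ hs₁, one_smul]
  have hχ₂ : χ₂ = s₂⁻¹ • Om (F := F) θ M b (SchP (Nat.card F) M t₂.t) := by
    rw [h₂, smul_smul, inv_mul_cancel₀ hs₂, one_smul]
  let l : ∀ {k : ℕ} (χ : GL (Fin k) F → ℂ) [Fintype (GL (Fin k) F)], RS M →ₗ[ℂ] ℂ := fun {k} χ _ =>
    { toFun := fun x => classInner (Om (F := F) θ M k x) χ
      map_add' := fun x y => by rw [H941.GLn.Om_add, Characters.Core.classInner_add_left]
      map_smul' := fun c x => by
        rw [H941.GLn.Om_smul, Characters.Core.classInner_smul_left]; rfl }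
  rw [classInner_evT e' _ ψ (coP M x) (fun y => hHC x y.1 y.2 (e' y) (he' y)) χ₁ χ₂ (fun y => hψ y (e' y) (he' y))
    (l χ₁) (l χ₂) (fun _ => rfl) (fun _ => rfl)]
  have hx' : x ∈ PGen (Nat.card F : ℤ) M 1 := by
    have h3 : GenR (Nat.card F : ℤ) M ≤ PGen (Nat.card F : ℤ) M 1 := by
      refine Algebra.adjoin_le ?_
      rintro _ ⟨v, rfl⟩
      exact Algebra.subset_adjoin ⟨v.1, v.2, Nat.coprime_one_right _, rfl⟩
    exact h3 hx
  rw [H623.GLn.map_coP_congr hx' (g₁' := (conj s₁)⁻¹ • frm (Nat.card F : ℤ) M (SchP (Nat.card F) M t₁.t))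
    (g₂' := (conj s₂)⁻¹ • frm (Nat.card F : ℤ) M (SchP (Nat.card F) M t₂.t))]
  · rw [TensorProduct.map_smul_left, TensorProduct.map_smul_right, LinearMap.smul_apply, LinearMap.smul_apply, map_smul,
      map_smul, smul_eq_mul, smul_eq_mul, mul_assoc]
    congr 2
    rw [← H120.GLB.Ctx.cfE_one hQ hx]
    unfold cfE
    refine H623.GLn.map_coP_congr hx' (fun y hy => ?_) (fun _ _ => rfl)
    have hy' : H120.GLB.Tau.gen (Nat.card F : ℤ) M y = y := by
      have hle : PGen (Nat.card F : ℤ) M 1 ≤ AlgHom.equalizer (H120.GLB.Tau.gen (Nat.card F : ℤ) M)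
          (AlgHom.id ℂ (RS M)) := by
        refine Algebra.adjoin_le ?_
        rintro _ ⟨k, c, -, rfl⟩
        exact H120.GLB.Ctx.gen_rv hQ k c
      exact hle hy
    rw [LinearMap.comp_apply, H120.GLB.Ctx.PhiF_one, pow_one]
    show _ = frm (Nat.card F : ℤ) M _ (H120.GLB.Tau.gen (Nat.card F : ℤ) M y)
    rw [hy']
  · intro y hy
    show classInner (Om (F := F) θ M a y) χ₁ = _
    rw [hχ₁, Characters.Core.classInner_smul_right, H623.GLn.classInner_Om_gen hctx ha (H623.GLn.PGen_le hy)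
      (SchP_mem_Hom hQ t₁), map_inv₀]
    rfl
  · intro y hy
    show classInner (Om (F := F) θ M b y) χ₂ = _
    rw [hχ₂, Characters.Core.classInner_smul_right, H623.GLn.classInner_Om_gen hctx hb (H623.GLn.PGen_le hy)
      (SchP_mem_Hom hQ t₂), map_inv₀]
    rfl

/-- the pairing is nonzero only for the members of the product of the families -/
theorem mem_of_classInner_ne_zero (hctx : Ctx F θ N M) (hp : p.Prime) {a b n m : ℕ} (ha : a ≤ N) (hb : b ≤ N)
    (ham : a ≤ m) (hbm : b ≤ m)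
    (e : ((Fin a → F) × (Fin b → F)) ≃ₗ[F] (Fin n → F)) (U : Subgroup (GL (Fin n) F))
    (hHC : ∀ (x : RS M) (A : GL (Fin a) F) (B : GL (Fin b) F) (h : (jj (K := F) e).range), jj e (A, B) = h →
      hcRes (jj (K := F) e).range U (Om θ M n x) h = evT θ M (Matrix.toLin' A.1) (Matrix.toLin' B.1) (coP M x))
    [Fintype (jj (K := F) e).range]
    (t₀ : LabZ (Nat.card F) M m n) (h₀ : POnly M p t₀.t) (δ₀ : ZMod M) (h₁ : OnlyOn (Nat.card F) M δ₀ t₀.t)
    (t₁ : LabZ (Nat.card F) M m a) (h₁p : POnly M p t₁.t) (h₁o : OnlyOn (Nat.card F) M δ₀ t₁.t)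
    (t₂ : LabZ (Nat.card F) M m b) (h₂p : POnly M p t₂.t) (h₂o : OnlyOn (Nat.card F) M δ₀ t₂.t)
    (hq : ((Nat.card F : ℕ) : ZMod p) = 1) {χ : IrrCharacter (GL (Fin n) F)} (hχ : χ ∈ famSet θ p t₀)
    (ψ : IrrCharacter (jj (K := F) e).range)
    (h : classInner (hcRes (jj (K := F) e).range U (χ : GL (Fin n) F → ℂ)) (ψ : (jj (K := F) e).range → ℂ) ≠ 0) :
    ψ ∈ prodBlk (jj (K := F) e).range (jj e) (famSet θ p t₁) (famSet θ p t₂) := by
  have hQ := H112.GLB.isUnit_card hctx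
  have hQp : (((Nat.card F : ℕ) : ℤ) : ZMod p) = 1 := by exact_mod_cast hq
  obtain ⟨t, ⟨s, hs⟩, hfam⟩ := hχ
  let e' : GL (Fin a) F × GL (Fin b) F ≃* (jj (K := F) e).range := MonoidHom.ofInjective (H901.Sl.jj_injective e)
  have he' : ∀ x, jj (K := F) e x = (e' x : GL (Fin n) F) := fun x => rfl
  have h3 : IsIrrCharacter (GL (Fin a) F × GL (Fin b) F) (fun x => (ψ : (jj (K := F) e).range → ℂ) (e' x)) :=
    Characters.Core.isIrr_comp (e' : GL (Fin a) F × GL (Fin b) F →* (jj (K := F) e).range) e'.surjective ψ.2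
  obtain ⟨c₁, c₂, hc₁, hc₂, hab⟩ := (Cfsg.Agent.S0188.result _).1 h3
  have hψ : ∀ (y : GL (Fin a) F × GL (Fin b) F) (h : (jj (K := F) e).range), jj e y = h →
      (ψ : (jj (K := F) e).range → ℂ) h = c₁ y.1 * c₂ y.2 := by
    intro y h hy
    have h4 : e' y = h := Subtype.ext ((he' y).symm.trans hy)
    rw [← h4]
    exact congrFun hab y
  obtain ⟨t₁', ⟨s₁, hs₁⟩, -⟩ := (isLab_bij hctx ha ham).1 ⟨c₁, hc₁⟩
  obtain ⟨t₂', ⟨s₂, hs₂⟩, -⟩ := (isLab_bij hctx hb hbm).1 ⟨c₂, hc₂⟩
  have hne : ∀ s : ℤˣ, (((s : ℤ) : ℂ)) ≠ 0 := fun s => by exact_mod_cast s.ne_zero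
  have h5 := classInner_hcRes hctx ha hb e U hHC (SchP_mem_Hom hQ t).1 hψ (hne s₁) (hne s₂) hs₁ hs₂
  have h6 : hcRes (jj (K := F) e).range U (Om θ M n (SchP (Nat.card F) M t.t)) =
      (((s : ℤ) : ℂ)) • hcRes (jj (K := F) e).range U (χ : GL (Fin n) F → ℂ) := by
    have hU := Fintype.ofFinite U
    funext x
    rw [hs, Pi.smul_apply]
    unfold hcRes
    rw [finsum_eq_sum_of_fintype, finsum_eq_sum_of_fintype, smul_eq_mul, mul_div_assoc', Finset.mul_sum]
    rfl
  rw [h6, Characters.Core.classInner_smul_left] at h5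
  have h7 : form (Nat.card F : ℤ) M (SchP (Nat.card F) M t.t) (SchP (Nat.card F) M t₁'.t * SchP (Nat.card F) M t₂'.t) ≠ 0 := by
    intro h8
    rw [h8, mul_zero] at h5
    exact mul_ne_zero (hne s) h h5
  have h8 := bsz_add_of_form_ne_zero hQ t t₁' t₂' h7
  have hover := over_of_sameFam hp h₀ h₁ hfam
  refine ⟨⟨c₁, hc₁⟩, ⟨t₁', ⟨s₁, hs₁⟩, ?_⟩, ⟨c₂, hc₂⟩, ⟨t₂', ⟨s₂, hs₂⟩, ?_⟩, hψ⟩
  · exact sameFam_of_over hp hQ hQp t₁ t₁' (over_of_pOnly hp h₁p h₁o) fun c hc => hover c (by rw [h8 c]; omega)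
  · exact sameFam_of_over hp hQ hQp t₂ t₂' (over_of_pOnly hp h₂p h₂o) fun c hc => hover c (by rw [h8 c]; omega)

theorem mem_of_sum_mem_span {ι W : Type*} [Fintype ι] [AddCommGroup W] [Module ℂ W] {v : ι → W}
    (hv : LinearIndependent ℂ v) {S : Set ι} {a : ι → ℂ} (h : ∑ j, a j • v j ∈ Submodule.span ℂ (v '' S)) {j : ι}
    (hj : a j ≠ 0) : j ∈ S := by
  classical
  obtain ⟨l, hl, h2⟩ := (Finsupp.mem_span_image_iff_linearCombination ℂ).1 h
  have h3 : Finsupp.linearCombination ℂ v (Finsupp.equivFunOnFinite.symm a) = ∑ j, a j • v j := by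
    rw [Finsupp.linearCombination_apply, Finsupp.sum_fintype]
    · rfl
    · intro i; rw [zero_smul]
  have h4 : Finsupp.equivFunOnFinite.symm a = l := hv (h3.trans h2.symm)
  refine hl ?_
  rw [← h4, Finset.mem_coe, Finsupp.mem_support_iff]
  exact hj

/-- **hBC**: the constituents of the Harish-Chandra restriction of a Brauer character over `Δ^w`. -/
theorem hBC_prod (hctx : Ctx F θ N M) (hpF : p ≠ ringChar F) (h𝔐 : IsPModular p 𝔐) (hV : Above 𝔐 V)
    {a b n m : ℕ} (hn : n ≤ N) (hm : n ≤ m) (e : ((Fin a → F) × (Fin b → F)) ≃ₗ[F] (Fin n → F))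
    (U : Subgroup (GL (Fin n) F)) (hU : (Nat.card U).Coprime p)
    (hLU : ∀ l ∈ (jj (K := F) e).range, ∀ u ∈ U, l * u * l⁻¹ ∈ U)
    (hHC : ∀ (x : RS M) (A : GL (Fin a) F) (B : GL (Fin b) F) (h : (jj (K := F) e).range), jj e (A, B) = h →
      hcRes (jj (K := F) e).range U (Om θ M n x) h = evT θ M (Matrix.toLin' A.1) (Matrix.toLin' B.1) (coP M x))
    (t₀ : LabZ (Nat.card F) M m n) (h₀ : POnly M p t₀.t) (δ₀ : ZMod M) (h₁ : OnlyOn (Nat.card F) M δ₀ t₀.t)
    (t₁ : LabZ (Nat.card F) M m a) (h₁p : POnly M p t₁.t) (h₁o : OnlyOn (Nat.card F) M δ₀ t₁.t)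
    (t₂ : LabZ (Nat.card F) M m b) (h₂p : POnly M p t₂.t) (h₂o : OnlyOn (Nat.card F) M δ₀ t₂.t)
    (hq : ((Nat.card F : ℕ) : ZMod p) = 1)
    {i : IBr V (GL (Fin n) F)} (hi : i ∈ ibrUnder V (famSet θ p t₀)) (μ : IBr V (jj (K := F) e).range → ℕ)
    (hμ : ∀ x : (jj (K := F) e).range, IsPRegular p x →
      hcRes (jj (K := F) e).range U (phi p i) x = ∑ᶠ j, (μ j : ℂ) * phi p j x)
    (j : IBr V (jj (K := F) e).range) (hj : μ j ≠ 0) :
    j ∈ ibrUnder V (prodBlk (jj (K := F) e).range (jj e) (famSet θ p t₁) (famSet θ p t₂)) := by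
  classical
  have hp := h𝔐.1
  have : Fact p.Prime := ⟨hp⟩
  have hnab : a + b = n := by
    have h2 := e.finrank_eq
    rw [Module.finrank_prod, Module.finrank_fin_fun, Module.finrank_fin_fun, Module.finrank_fin_fun] at h2
    exact h2
  let L := (jj (K := F) e).range
  have hLdef : L = (jj (K := F) e).range := rfl
  have := Fintype.ofFinite (jj (K := F) e).range
  have hfU := Fintype.ofFinite U
  have := Characters.Core.finite_irr (G := GL (Fin n) F)
  have := Fintype.ofFinite (IrrCharacter (GL (Fin n) F))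
  have := Characters.Core.finite_irr (G := (jj (K := F) e).range)
  have := Fintype.ofFinite (IrrCharacter (jj (K := F) e).range)
  have := Fintype.ofFinite (IBr V (jj (K := F) e).range)
  set BL := prodBlk (jj (K := F) e).range (jj e) (famSet θ p t₁) (famSet θ p t₂) with hBL
  obtain ⟨k, hk0, hk⟩ := H699.EqDeg.exists_int_comb h𝔐 hV (isUnion_famSet hctx hpF h𝔐 hn hm t₀) hi
  -- the restrictions of the ordinary characters
  have hmem : ∀ χ ∈ famSet θ p t₀, pReg p (hcRes (jj (K := F) e).range U (χ : GL (Fin n) F → ℂ)) ∈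
      Submodule.span ℂ (phi p '' ibrUnder V BL) := by
    intro χ hχ
    apply map_pReg_le_span h𝔐 hV BL
    refine ⟨_, ?_, rfl⟩
    have h2 := Characters.Core.classFunction_eq_sum (isClassFunction_hcRes (jj (K := F) e).range U hLU
      (Characters.Core.isIrr_isClassFunction χ.2))
    rw [h2]
    refine Submodule.sum_mem _ fun ψ _ => ?_
    by_cases h3 : classInner (hcRes (jj (K := F) e).range U (χ : GL (Fin n) F → ℂ))
        (ψ : (jj (K := F) e).range → ℂ) = 0
    · rw [h3, zero_smul]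
      exact Submodule.zero_mem _
    · exact Submodule.smul_mem _ _ (Submodule.subset_span ⟨ψ, mem_of_classInner_ne_zero hctx hp (by omega) (by omega)
        (by omega) (by omega) e U hHC t₀ h₀ δ₀ h₁ t₁ h₁p h₁o t₂ h₂p h₂o hq hχ ψ h3, rfl⟩)
  -- the sum is in the span
  have hsum : ∑ j, (μ j : ℂ) • phi p j ∈ Submodule.span ℂ (phi p '' ibrUnder V BL) := by
    have h2 : ∑ j, (μ j : ℂ) • phi p j = ∑ χ : IrrCharacter (GL (Fin n) F),
        (k χ : ℂ) • pReg p (hcRes (jj (K := F) e).range U (χ : GL (Fin n) F → ℂ)) := by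
      funext x
      rw [Finset.sum_apply, Finset.sum_apply]
      by_cases hx : IsPRegular p x
      · have h3 := hμ x hx
        rw [finsum_eq_sum_of_fintype] at h3
        have h4 : ∑ j, ((μ j : ℂ) • phi p j) x = ∑ j, (μ j : ℂ) * phi p j x := rfl
        rw [h4, ← h3]
        have h5 : ∀ u : U, IsPRegular p ((x : GL (Fin n) F) * u) := fun u =>
          H379.GLB.isPRegular_mul hp hU (fun v hv => hLU x x.2 v hv)
            (by unfold IsPRegular at hx ⊢; rwa [Subgroup.orderOf_coe]) u.2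
        unfold hcRes
        rw [finsum_eq_sum_of_fintype]
        have h6 : ∀ u : U, phi p i ((x : GL (Fin n) F) * u) =
            ∑ χ : IrrCharacter (GL (Fin n) F), (k χ : ℂ) * (χ : GL (Fin n) F → ℂ) (x * u) := by
          intro u
          rw [hk, Finset.sum_apply]
          refine Finset.sum_congr rfl fun χ _ => ?_
          rw [Pi.smul_apply, smul_eq_mul, pReg_of (h5 u)]
        rw [Finset.sum_congr rfl fun u _ => h6 u, Finset.sum_comm, Finset.sum_div]
        refine Finset.sum_congr rfl fun χ _ => ?_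
        rw [Pi.smul_apply, smul_eq_mul, pReg_of hx, finsum_eq_sum_of_fintype, mul_div_assoc', Finset.mul_sum]
      · rw [Finset.sum_eq_zero, Finset.sum_eq_zero]
        · intro χ _
          rw [Pi.smul_apply, pReg_of_not hx, smul_zero]
        · intro j _
          rw [Pi.smul_apply, phi_of_not j hx, smul_zero]
    rw [h2]
    refine Submodule.sum_mem _ fun χ _ => ?_
    by_cases hχ : χ ∈ famSet θ p t₀
    · exact Submodule.smul_mem _ _ (hmem χ hχ)
    · rw [hk0 χ hχ, Int.cast_zero, zero_smul]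
      exact Submodule.zero_mem _
  by_contra hnot
  have : CharP (IsLocalRing.ResidueField V) p := hV.charP h𝔐
  have hlin := linearIndependent_phi (V := V) (G := (jj (K := F) e).range) (p := p)
  exact hnot (mem_of_sum_mem_span hlin hsum (Nat.cast_ne_zero.2 hj))

end chars

end Cfsg.Agent.H614.GLn.RSt
end

-- part: H379/GLB/Dvd
section
/-!
# S4536, piece P4: Harish-Chandra restriction of Brauer characters and multiplicities (helper379)

* `hcRes_phi`: the Harish-Chandra restriction of a Brauer character is a sum of Brauer characters;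
* `dvd_mult_of`: divisibility of the multiplicities, given Clifford's theorem for the restriction.
-/

set_option autoImplicit false

open Cfsg IsLocalRing Module
open Cfsg.Agent.H657

namespace Cfsg.Agent.H379.GLB

open Cfsg.Agent.H577.GLB (cj IsRes hcRes)

universe u

variable {V : ValuationSubring ℂ} {p : ℕ} {M : Ideal AlgInt}

section coeff

variable {A : Type u} [Group A] [Finite A]

/-- comparison of coefficients -/
theorem coeff_eq (hM : IsPModular p M) (hV : Above M V) [Fintype (IBr V A)] {a b : IBr V A → ℂ}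
    (h : ∀ x : A, IsPRegular p x → ∑ t, a t * phi p t x = ∑ t, b t * phi p t x) (t : IBr V A) :
    a t = b t := by
  have : Fact p.Prime := ⟨hM.1⟩
  have : CharP (ResidueField V) p := hV.charP hM
  have h1 := Fintype.linearIndependent_iff.1 (linearIndependent_phi (V := V) (G := A) (p := p))
    (fun t => a t - b t) (by
      funext x
      rw [Finset.sum_apply, Pi.zero_apply]
      simp only [Pi.smul_apply, smul_eq_mul, sub_mul, Finset.sum_sub_distrib]
      by_cases hx : IsPRegular p x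
      · rw [h x hx, sub_self]
      · rw [Finset.sum_congr rfl fun t _ => show a t * phi p t x = 0 by
            rw [phi_of_not t hx, mul_zero],
          Finset.sum_congr rfl fun t _ => show b t * phi p t x = 0 by
            rw [phi_of_not t hx, mul_zero]]
        simp) t
  exact sub_eq_zero.1 h1

theorem phi_injective (hM : IsPModular p M) (hV : Above M V) {j j' : IBr V A}
    (h : ∀ x : A, IsPRegular p x → phi p j x = phi p j' x) : j = j' := by
  have : Fact p.Prime := ⟨hM.1⟩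
  have : CharP (ResidueField V) p := hV.charP hM
  apply (linearIndependent_phi (V := V) (G := A) (p := p)).injective
  funext x
  by_cases hx : IsPRegular p x
  · exact h x hx
  · simp only [phi_of_not _ hx]

open Classical in
theorem sum_idx [Fintype (IBr V A)] {n : ℕ} (idx : Fin n → IBr V A) (x : A) :
    ∑ l, phi p (idx l) x =
      ∑ t, ((Finset.univ.filter fun l => idx l = t).card : ℂ) * phi p t x := by
  have h1 : ∀ t, ((Finset.univ.filter fun l => idx l = t).card : ℂ) * phi p t x =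
      ∑ l ∈ Finset.univ.filter (fun l => idx l = t), phi p (idx l) x := by
    intro t
    rw [Finset.sum_congr rfl (g := fun _ => phi p t x) (fun l hl => by
      rw [(Finset.mem_filter.1 hl).2]), Finset.sum_const, nsmul_eq_mul]
  rw [Finset.sum_congr rfl fun t _ => h1 t]
  exact (Finset.sum_fiberwise_of_maps_to (fun l _ => Finset.mem_univ (idx l)) _).symm

/-- the average over `U` -/
theorem exists_mult {G : Type u} [Group G] [Finite G] (hM : IsPModular p M) (hV : Above M V)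
    [Fintype (IBr V A)] {U : Subgroup G} [Fintype U] (hU : (Fintype.card U).Coprime p) {f : A →* G}
    (hf : Nz f U) (i : IBr V G) :
    ∃ c : IBr V A → ℕ, ∀ a, IsPRegular p a →
      ∑ u : U, phi p i (f a * u) = (Fintype.card U : ℂ) * ∑ t, (c t : ℂ) * phi p t a := by
  classical
  obtain ⟨n, idx, h⟩ := hc_hom hM hV hU hf i
  exact ⟨fun t => (Finset.univ.filter fun l => idx l = t).card, fun a ha => by
    rw [h a ha, sum_idx]⟩

end coeff

section main

variable {G : Type u} [Group G] [Finite G]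

/-- **P4a: the Harish-Chandra restriction of a Brauer character is a sum of Brauer characters.** -/
theorem hcRes_phi (hM : IsPModular p M) (hV : Above M V) (L U : Subgroup G)
    (hU : (Nat.card U).Coprime p) (hLU : ∀ l ∈ L, ∀ u ∈ U, l * u * l⁻¹ ∈ U) (_hd : Disjoint L U)
    (i : IBr V G) :
    ∃ m : IBr V L → ℕ, ∀ x : L, IsPRegular p x →
      hcRes L U (phi p i) x = ∑ᶠ j, (m j : ℂ) * phi p j x := by
  classical
  have := Fintype.ofFinite U
  have := Fintype.ofFinite (IBr V L)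
  obtain ⟨c, hc⟩ := exists_mult (A := L) hM hV (U := U) (by rwa [← Nat.card_eq_fintype_card])
    (f := L.subtype) (fun l u hu => hLU l l.2 u hu) i
  refine ⟨c, fun x hx => ?_⟩
  have h1 := hc x hx
  have h0 : (Fintype.card U : ℂ) ≠ 0 := Nat.cast_ne_zero.2 Fintype.card_ne_zero
  unfold hcRes
  rw [finsum_eq_sum_of_fintype, finsum_eq_sum_of_fintype, Nat.card_eq_fintype_card, div_eq_iff h0,
    mul_comm]
  exact h1

/-- `p`-regular elements are in a normal subgroup of `p`-power index -/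
theorem mem_of_isPRegular {N : Subgroup G} [N.Normal] (hp : p.Prime) {a : ℕ}
    (hi : Nat.card (G ⧸ N) = p ^ a) {x : G} (hx : IsPRegular p x) : x ∈ N := by
  rw [← QuotientGroup.eq_one_iff, ← orderOf_eq_one_iff]
  have h1 : orderOf (x : G ⧸ N) ∣ p ^ a := hi ▸ orderOf_dvd_natCard _
  have h2 : orderOf (x : G ⧸ N) ∣ orderOf x := orderOf_map_dvd (QuotientGroup.mk' N) x
  obtain ⟨k, -, hk⟩ := (Nat.dvd_prime_pow hp).1 h1
  rcases Nat.eq_zero_or_pos k with rfl | hk0
  · rw [hk, pow_zero]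
  · exact absurd ((dvd_pow_self p hk0.ne').trans (hk ▸ h2)) hx

/-- **P4b, given Clifford's theorem**: `N` normal of `p`-power index with `G = N L`, `U ≤ N`; the Brauer characters of
`L` occurring in the Harish-Chandra restriction of `i` stay irreducible on `L ∩ N`. Then all the multiplicities are
divisible by the number of constituents of `i` on `N`. -/
theorem dvd_mult_of (hM : IsPModular p M) (hV : Above M V) (N : Subgroup G) [N.Normal]
    {a : ℕ} (hi : Nat.card (G ⧸ N) = p ^ a) (L U : Subgroup G)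
    (hU : (Nat.card U).Coprime p) (hLU : ∀ l ∈ L, ∀ u ∈ U, l * u * l⁻¹ ∈ U)
    (hUN : U ≤ N) (hLN : L ⊔ N = ⊤) (i : IBr V G) (O : Finset (IBr V N)) (hO : IsRes p N i O)
    (hcl : ∀ j ∈ O, ∀ j' ∈ O, ∃ g : G, phi p j' = cj N g (phi p j))
    (m : IBr V L → ℕ)
    (hm : ∀ x : L, IsPRegular p x → hcRes L U (phi p i) x = ∑ᶠ j, (m j : ℂ) * phi p j x)
    (hirr : ∀ j, m j ≠ 0 → ∃ j' : IBr V (N.subgroupOf L), IsRes p (N.subgroupOf L) j {j'})
    (j : IBr V L) : O.card ∣ m j := by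
  classical
  have hp := hM.1
  have : Fact p.Prime := ⟨hM.1⟩
  have : CharP (ResidueField V) p := hV.charP hM
  by_cases hmj : m j = 0
  · rw [hmj]
    exact dvd_zero _
  have := Fintype.ofFinite U
  have := Fintype.ofFinite (IBr V L)
  set L' : Subgroup L := N.subgroupOf L with hL'
  have := Fintype.ofFinite (IBr V L')
  let UN : Subgroup N := U.subgroupOf N
  have := Fintype.ofFinite UN
  let f : L' →* N :=
    { toFun := fun x => ⟨(x : L), Subgroup.mem_subgroupOf.1 x.2⟩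
      map_one' := rfl
      map_mul' := fun _ _ => rfl }
  let eU : UN ≃* U := Subgroup.subgroupOfEquivOfLe hUN
  have hcU : Fintype.card UN = Fintype.card U := Fintype.card_congr eU.toEquiv
  have hUNc : (Fintype.card UN).Coprime p := by
    rw [hcU, ← Nat.card_eq_fintype_card]
    exact hU
  have hf : Nz f UN := by
    intro x u hu
    exact hLU (x : L) (x : L).2 (u : G) hu
  have h0 : (Fintype.card U : ℂ) ≠ 0 := Nat.cast_ne_zero.2 Fintype.card_ne_zero
  choose c hc using fun s : IBr V N => exists_mult (A := L') hM hV (U := UN) hUNc hf s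
  -- the members of `L` occurring
  have hr : ∀ j : IBr V L, ∃ t : IBr V L', m j ≠ 0 → ∀ x : L', phi p j x = phi p t x := by
    intro j
    by_cases h : m j = 0
    · obtain ⟨t, -⟩ := hirr _ hmj
      exact ⟨t, fun h' => absurd h h'⟩
    · obtain ⟨t, ht⟩ := hirr j h
      exact ⟨t, fun _ x => by rw [ht x, Finset.sum_singleton]⟩
  choose r hr using hr
  have hmemL : ∀ x : L, IsPRegular p x → x ∈ L' := by
    intro x hx
    rw [hL', Subgroup.mem_subgroupOf]
    refine mem_of_isPRegular hp hi ?_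
    unfold IsPRegular at hx ⊢
    rwa [Subgroup.orderOf_coe]
  have hinj : ∀ j₁ j₂, m j₁ ≠ 0 → m j₂ ≠ 0 → r j₁ = r j₂ → j₁ = j₂ := by
    intro j₁ j₂ h1 h2 h
    refine phi_injective hM hV fun x hx => ?_
    have h3 := hr j₁ h1 ⟨x, hmemL x hx⟩
    have h4 := hr j₂ h2 ⟨x, hmemL x hx⟩
    rw [h] at h3
    exact h3.trans h4.symm
  -- the coefficient of `r j`
  have hcoef : ∀ t : IBr V L', ((∑ j₁ ∈ Finset.univ.filter (fun j₁ => m j₁ ≠ 0 ∧ r j₁ = t), m j₁ : ℕ) : ℂ) =
      ((∑ s ∈ O, c s t : ℕ) : ℂ) := by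
    refine coeff_eq hM hV fun x hx => ?_
    have hx' : IsPRegular p (x : L) := by
      unfold IsPRegular at hx ⊢
      rwa [Subgroup.orderOf_coe]
    have h1 := hm x hx'
    unfold hcRes at h1
    rw [finsum_eq_sum_of_fintype, finsum_eq_sum_of_fintype, Nat.card_eq_fintype_card] at h1
    -- left side
    have h2 : ∑ t, ((∑ j₁ ∈ Finset.univ.filter (fun j₁ => m j₁ ≠ 0 ∧ r j₁ = t), m j₁ : ℕ) : ℂ) * phi p t x =
        ∑ j₁, (m j₁ : ℂ) * phi p j₁ (x : L) := by
      have h3 : ∀ t, ((∑ j₁ ∈ Finset.univ.filter (fun j₁ => m j₁ ≠ 0 ∧ r j₁ = t), m j₁ : ℕ) : ℂ) * phi p t x =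
          ∑ j₁ ∈ (Finset.univ.filter fun j₁ => m j₁ ≠ 0).filter (fun j₁ => r j₁ = t),
            (m j₁ : ℂ) * phi p j₁ (x : L) := by
        intro t
        rw [Nat.cast_sum, Finset.sum_mul, Finset.filter_filter]
        refine Finset.sum_congr rfl fun j₁ hj₁ => ?_
        obtain ⟨-, h4, h5⟩ := Finset.mem_filter.1 hj₁
        rw [hr j₁ h4 x, h5]
      rw [Finset.sum_congr rfl fun t _ => h3 t,
        Finset.sum_fiberwise_of_maps_to (fun l _ => Finset.mem_univ (r l))]
      refine Finset.sum_subset (Finset.filter_subset _ _) fun j₁ _ hj₁ => ?_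
      have h4 : m j₁ = 0 := by
        by_contra h4
        exact hj₁ (Finset.mem_filter.2 ⟨Finset.mem_univ _, h4⟩)
      rw [h4, Nat.cast_zero, zero_mul]
    rw [h2, ← h1]
    -- right side
    have h3 : ∑ u : U, phi p i ((x : L) * u) = ∑ s ∈ O, ∑ u : UN, phi p s (f x * u) := by
      rw [Finset.sum_comm]
      refine Fintype.sum_equiv eU.symm.toEquiv _ _ fun u => ?_
      exact hO (f x * (eU.symm u : UN))
    rw [h3, Finset.sum_congr rfl fun s _ => hc s x hx, ← Finset.mul_sum, hcU,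
      mul_div_cancel_left₀ _ h0, Finset.sum_comm]
    refine Finset.sum_congr rfl fun t _ => ?_
    rw [Nat.cast_sum, Finset.sum_mul]
  have hmj' : m j = ∑ s ∈ O, c s (r j) := by
    have h1 := hcoef (r j)
    have h2 : Finset.univ.filter (fun j₁ => m j₁ ≠ 0 ∧ r j₁ = r j) = {j} := by
      ext j₁
      rw [Finset.mem_filter, Finset.mem_singleton]
      constructor
      · rintro ⟨-, h3, h4⟩
        exact hinj _ _ h3 hmj h4
      · rintro rfl
        exact ⟨Finset.mem_univ _, hmj, rfl⟩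
    rw [h2, Finset.sum_singleton] at h1
    exact_mod_cast h1
  -- the multiplicities are the same
  have hsame : ∀ s ∈ O, ∀ s' ∈ O, c s' (r j) = c s (r j) := by
    intro s hs s' hs'
    obtain ⟨g, hg⟩ := hcl s hs s' hs'
    obtain ⟨l, hl, n, hn, rfl⟩ : ∃ l ∈ L, ∃ n ∈ N, l * n = g := by
      have : g ∈ L ⊔ N := hLN ▸ Subgroup.mem_top g
      rw [Subgroup.mem_sup_of_normal_right] at this
      exact this
    have hN : N.Normal := inferInstance
    have hgs : ∀ x : N, phi p s' x = phi p s ⟨l * x * l⁻¹, hN.conj_mem x x.2 l⟩ := by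
      intro x
      rw [hg]
      unfold cj
      have h1 := phi_isClassFunction p s ⟨l * x * l⁻¹, hN.conj_mem x x.2 l⟩
        ⟨l * n * l⁻¹, hN.conj_mem n hn l⟩
      rw [← h1]
      congr 1
      apply Subtype.ext
      simp only [Subgroup.coe_mul, Subgroup.coe_inv]
      group
    -- conjugation by `l` on `L'`
    have hL'n : L'.Normal := hN.subgroupOf L
    let e : L' ≃* L' := (MulAut.conjNormal (⟨l, hl⟩ : L) : MulAut L').symm
    have he : ∀ x : L', ((e.symm x : L') : L) = ⟨l, hl⟩ * x * (⟨l, hl⟩ : L)⁻¹ := fun x => rfl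
    let ψ : UN ≃ UN :=
      { toFun := fun u => ⟨⟨l * (u : N) * l⁻¹, hN.conj_mem _ (u : N).2 l⟩, hLU l hl _ u.2⟩
        invFun := fun u => ⟨⟨l⁻¹ * (u : N) * l, by
          have := hN.conj_mem _ (u : N).2 l⁻¹
          rwa [inv_inv] at this⟩, by
          have := hLU l⁻¹ (L.inv_mem hl) _ u.2
          rwa [inv_inv] at this⟩
        left_inv := fun u => by
          apply Subtype.ext
          apply Subtype.ext
          show l⁻¹ * (l * ((u : N) : G) * l⁻¹) * l = _
          group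
        right_inv := fun u => by
          apply Subtype.ext
          apply Subtype.ext
          show l * (l⁻¹ * ((u : N) : G) * l) * l⁻¹ = _
          group }
    have h3 : ∀ x : L', IsPRegular p x →
        ∑ t, (c s' t : ℂ) * phi p t x = ∑ t, (c s t : ℂ) * phi p t (e.symm x) := by
      intro x hx
      have hx' : IsPRegular p (e.symm x) := by
        unfold IsPRegular at hx ⊢
        rwa [MulEquiv.orderOf_eq]
      have h4 := hc s' x hx
      have h5 := hc s (e.symm x) hx'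
      have h6 : ∑ u : UN, phi p s' (f x * u) = ∑ u : UN, phi p s (f (e.symm x) * u) := by
        refine Fintype.sum_equiv ψ _ _ fun u => ?_
        rw [hgs]
        congr 1
        apply Subtype.ext
        show l * (((x : L) : G) * (u : N)) * l⁻¹ = (l * ((x : L) : G) * l⁻¹) * (l * (u : N) * l⁻¹)
        group
      rw [hcU] at h4 h5
      exact mul_left_cancel₀ h0 (by rw [← h4, h6, h5])
    have hfix : ∀ t : IBr V L', t.map e = r j ↔ t = r j := by
      have h4 : ∀ x : L', phi p (r j) (e.symm x) = phi p (r j) x := by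
        intro x
        rw [← hr j hmj, ← hr j hmj, he]
        exact phi_isClassFunction p j _ _
      intro t
      constructor
      · intro h
        refine phi_injective hM hV fun y _ => ?_
        obtain ⟨x, rfl⟩ := e.symm.surjective y
        rw [← phi_map p e t x, h, h4]
      · rintro rfl
        refine phi_injective hM hV fun x _ => ?_
        rw [phi_map, h4]
    have h7 := coeff_eq hM hV (a := fun t => (c s' t : ℂ))
      (b := fun t' => ((∑ t ∈ Finset.univ.filter (fun t : IBr V L' => t.map e = t'), c s t : ℕ) : ℂ))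
      (fun x hx => by
        rw [h3 x hx]
        have h8 : ∀ t', ((∑ t ∈ Finset.univ.filter (fun t : IBr V L' => t.map e = t'), c s t : ℕ) : ℂ) *
            phi p t' x = ∑ t ∈ Finset.univ.filter (fun t : IBr V L' => t.map e = t'),
              (c s t : ℂ) * phi p t (e.symm x) := by
          intro t'
          rw [Nat.cast_sum, Finset.sum_mul]
          refine Finset.sum_congr rfl fun t ht => ?_
          rw [← (Finset.mem_filter.1 ht).2, phi_map]
        rw [Finset.sum_congr rfl fun t _ => h8 t]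
        exact (Finset.sum_fiberwise_of_maps_to (fun t _ => Finset.mem_univ (IBr.map e t)) _).symm) (r j)
    have h9 : Finset.univ.filter (fun t : IBr V L' => t.map e = r j) = {r j} := by
      ext t
      rw [Finset.mem_filter, Finset.mem_singleton, hfix]
      exact ⟨fun h => h.2, fun h => ⟨Finset.mem_univ _, h⟩⟩
    simp only [h9, Finset.sum_singleton] at h7
    exact_mod_cast h7
  rcases O.eq_empty_or_nonempty with h | ⟨s, hs⟩
  · rw [hmj', h]
    simp
  · rw [hmj', Finset.sum_congr rfl fun s' hs' => hsame s hs s' hs', Finset.sum_const, smul_eq_mul]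
    exact dvd_mul_right _ _

/-- the set of constituents is unique -/
theorem isRes_unique (hM : IsPModular p M) (hV : Above M V) (N : Subgroup G) (i : IBr V G)
    {O O' : Finset (IBr V N)} (h : IsRes p N i O) (h' : IsRes p N i O') : O = O' := by
  classical
  have := Fintype.ofFinite (IBr V N)
  have h1 : ∀ (O : Finset (IBr V N)) (x : N), ∑ t, (if t ∈ O then (1 : ℂ) else 0) * phi p t x =
      ∑ t ∈ O, phi p t x := by
    intro O x
    simp only [ite_mul, one_mul, zero_mul, Finset.sum_ite_mem, Finset.univ_inter]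
  have h2 := coeff_eq hM hV (A := N) (a := fun t => if t ∈ O then (1 : ℂ) else 0)
    (b := fun t => if t ∈ O' then (1 : ℂ) else 0) (fun x _ => by rw [h1, h1, ← h x, ← h' x])
  ext t
  have h3 := h2 t
  by_cases h4 : t ∈ O <;> by_cases h5 : t ∈ O' <;> simp_all

/-- **P4b**, with the conclusion of Clifford's theorem for `i` as a hypothesis. -/
theorem dvd_mult_of' (hM : IsPModular p M) (hV : Above M V) (N : Subgroup G) [N.Normal]
    {a : ℕ} (hi : Nat.card (G ⧸ N) = p ^ a) (L U : Subgroup G)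
    (hU : (Nat.card U).Coprime p) (hLU : ∀ l ∈ L, ∀ u ∈ U, l * u * l⁻¹ ∈ U)
    (hUN : U ≤ N) (hLN : L ⊔ N = ⊤) (i : IBr V G)
    (hP1 : ∃ O : Finset (IBr V N), IsRes p N i O ∧
      ∀ j ∈ O, ∀ j' ∈ O, ∃ g : G, phi p j' = cj N g (phi p j))
    (O : Finset (IBr V N)) (hO : IsRes p N i O) (m : IBr V L → ℕ)
    (hm : ∀ x : L, IsPRegular p x → hcRes L U (phi p i) x = ∑ᶠ j, (m j : ℂ) * phi p j x)
    (hirr : ∀ j, m j ≠ 0 → ∃ j' : IBr V (N.subgroupOf L), IsRes p (N.subgroupOf L) j {j'})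
    (j : IBr V L) : O.card ∣ m j := by
  obtain ⟨O', hO', hcl⟩ := hP1
  obtain rfl := isRes_unique hM hV N i hO hO'
  exact dvd_mult_of hM hV N hi L U hU hLU hUN hLN i O hO hcl m hm hirr j

/-- **P4b.** -/
theorem dvd_mult (hM : IsPModular p M) (hV : Above M V) (N : Subgroup G) [N.Normal]
    (hc : IsCyclic (G ⧸ N)) {a : ℕ} (hi : Nat.card (G ⧸ N) = p ^ a) (L U : Subgroup G)
    (hU : (Nat.card U).Coprime p) (hLU : ∀ l ∈ L, ∀ u ∈ U, l * u * l⁻¹ ∈ U) (_hd : Disjoint L U)
    (hUN : U ≤ N) (hLN : L ⊔ N = ⊤) (i : IBr V G) (O : Finset (IBr V N)) (hO : IsRes p N i O)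
    (m : IBr V L → ℕ)
    (hm : ∀ x : L, IsPRegular p x → hcRes L U (phi p i) x = ∑ᶠ j, (m j : ℂ) * phi p j x)
    (hirr : ∀ j, m j ≠ 0 → ∃ j' : IBr V (N.subgroupOf L), IsRes p (N.subgroupOf L) j {j'})
    (j : IBr V L) : O.card ∣ m j := by
  obtain ⟨O', -, hO', -, hcl⟩ := H112.Clif.clifford_cyclic hM hV N hc i
  exact dvd_mult_of' hM hV N hi L U hU hLU hUN hLN i ⟨O', hO', hcl⟩ O hO m hm hirr j

end main

end Cfsg.Agent.H379.GLB
end

-- part: H166/GLB/P5
section
/-!
# S4536, piece P5: many Brauer characters stay irreducible (helper166)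

`le_card_irred`: integral combinations `g s`, `s < r`, of Harish-Chandra restrictions of members of a union of blocks `B`,
linearly independent modulo `p` in the lattice of Brauer characters of `L`: at least `r` members of `IBr(B)` stay irreducible
on `N`.
-/

set_option autoImplicit false

open Cfsg IsLocalRing Module
open Cfsg.Agent.H657

namespace Cfsg.Agent.H166.GLB

open Cfsg.Agent.H577.GLB (cj IsRes hcRes)
open Cfsg.Agent.H608.BlockRank (IsUnion)

universe u

/-- fewer than `r` equations modulo `p` in `r` unknowns -/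
theorem exists_kernel {p : ℕ} (hp : p.Prime) {r : ℕ} {ι : Type*} [Fintype ι] (h : Fintype.card ι < r)
    (A : Fin r → ι → ℤ) : ∃ c : Fin r → ℤ, (¬ ∀ s, (p : ℤ) ∣ c s) ∧ ∀ i, (p : ℤ) ∣ ∑ s, c s * A s i := by
  classical
  have := Fact.mk hp
  let f : (Fin r → ZMod p) →ₗ[ZMod p] (ι → ZMod p) :=
    { toFun := fun c i => ∑ s, c s * (A s i : ZMod p)
      map_add' := fun c d => by
        funext i
        simp only [Pi.add_apply, add_mul, Finset.sum_add_distrib]
      map_smul' := fun a c => by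
        funext i
        simp only [Pi.smul_apply, smul_eq_mul, RingHom.id_apply, Finset.mul_sum, mul_assoc] }
  have hk : LinearMap.ker f ≠ ⊥ := by
    apply LinearMap.ker_ne_bot_of_finrank_lt
    rw [Module.finrank_fintype_fun_eq_card, Module.finrank_fintype_fun_eq_card, Fintype.card_fin]
    exact h
  obtain ⟨c, hc, hc0⟩ := (Submodule.ne_bot_iff _).1 hk
  refine ⟨fun s => ((c s).val : ℤ), ?_, ?_⟩
  · intro hd
    apply hc0
    funext s
    have h1 := (ZMod.intCast_zmod_eq_zero_iff_dvd _ _).2 (hd s)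
    rw [Int.cast_natCast, ZMod.natCast_zmod_val] at h1
    exact h1
  · intro i
    rw [← ZMod.intCast_zmod_eq_zero_iff_dvd]
    push_cast
    simp only [ZMod.natCast_val, ZMod.cast_id', id]
    exact congrFun (LinearMap.mem_ker.1 hc) i

variable {V : ValuationSubring ℂ} {p : ℕ} {𝔐 : Ideal AlgInt} {G : Type u} [Group G] [Finite G]

/-- decomposition numbers -/
theorem exists_decomp_nat (hM : IsPModular p 𝔐) (hV : Above 𝔐 V) [Fintype (IBr V G)] (χ : IrrCharacter G) :
    ∃ d : IBr V G → ℕ, (∀ i, d i ≠ 0 → Under i (χ : G → ℂ)) ∧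
      ∀ g, IsPRegular p g → (χ : G → ℂ) g = ∑ i, (d i : ℂ) * phi p i g := by
  classical
  obtain ⟨m, idx, h1, h2⟩ := exists_decomp hM hV χ.2
  refine ⟨fun i => (Finset.univ.filter fun l => idx l = i).card, ?_, ?_⟩
  · intro i hi
    obtain ⟨l, hl⟩ := Finset.card_ne_zero.1 hi
    rw [← (Finset.mem_filter.1 hl).2]
    exact h1 l
  · intro g hg
    rw [h2 g hg, H379.GLB.sum_idx]

/-- P5. `g s` : functions on `L` which are integral combinations of Harish-Chandra restrictions of members of `B`, linearly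
independent mod `p` in the lattice of Brauer characters.  Then at least `r` members of `IBr(B)` stay irreducible on `N`. -/
theorem le_card_irred (hM : IsPModular p 𝔐) (hV : Above 𝔐 V) (N : Subgroup G) [N.Normal] (hc : IsCyclic (G ⧸ N))
    {a : ℕ} (hi : Nat.card (G ⧸ N) = p ^ a) (L U : Subgroup G) (hU : (Nat.card U).Coprime p)
    (hLU : ∀ l ∈ L, ∀ u ∈ U, l * u * l⁻¹ ∈ U) (hd : Disjoint L U) (hUN : U ≤ N) (hLN : L ⊔ N = ⊤)
    {B : Set (IrrCharacter G)} (hB : IsUnion 𝔐 B) (O : IBr V G → Finset (IBr V N))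
    (hO : ∀ i ∈ ibrUnder V B, IsRes p N i (O i)) (C : Set (IBr V L))
    (hC : ∀ j ∈ C, ∃ j' : IBr V (N.subgroupOf L), IsRes p (N.subgroupOf L) j {j'})
    (hBC : ∀ i ∈ ibrUnder V B, ∀ m : IBr V L → ℕ,
      (∀ x : L, IsPRegular p x → hcRes L U (phi p i) x = ∑ᶠ j, (m j : ℂ) * phi p j x) → ∀ j, m j ≠ 0 → j ∈ C)
    {r : ℕ} (g : Fin r → L → ℂ)
    (hg : ∀ s, ∃ n : IrrCharacter G → ℤ, (∀ χ, χ ∉ B → n χ = 0) ∧
      ∀ x : L, IsPRegular p x → g s x = ∑ᶠ χ, (n χ : ℂ) * hcRes L U (χ : G → ℂ) x)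
    (hpure : ∀ (c : Fin r → ℤ) (h : IBr V L → ℤ), (∀ x : L, IsPRegular p x →
      ∑ s, (c s : ℂ) * g s x = (p : ℂ) * ∑ᶠ j, (h j : ℂ) * phi p j x) → ∀ s, (p : ℤ) ∣ c s) :
    r ≤ Nat.card {i : IBr V G // i ∈ ibrUnder V B ∧ (O i).card = 1} := by
  classical
  have hp := hM.1
  have := Fintype.ofFinite (IBr V G)
  have := Fintype.ofFinite (IBr V L)
  have := Fintype.ofFinite U
  have := Characters.Core.finite_irr (G := G)
  have := Fintype.ofFinite (IrrCharacter G)
  have hU0 : (Nat.card U : ℂ) ≠ 0 := Nat.cast_ne_zero.2 Nat.card_pos.ne'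
  choose d hd1 hd2 using fun χ : IrrCharacter G => exists_decomp_nat hM hV χ
  choose m hm using fun i : IBr V G => H379.GLB.hcRes_phi hM hV L U hU hLU hd i
  choose n hn1 hn2 using hg
  -- the Harish-Chandra restriction of an ordinary character
  have hχ : ∀ (χ : IrrCharacter G) (x : L), IsPRegular p x →
      hcRes L U (χ : G → ℂ) x = ∑ i, (d χ i : ℂ) * ∑ j, (m i j : ℂ) * phi p j x := by
    intro χ x hx
    have hxG : IsPRegular p (x : G) := by
      unfold IsPRegular at hx ⊢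
      rwa [Subgroup.orderOf_coe]
    have h1 : ∀ i, ∑ j, (m i j : ℂ) * phi p j x = hcRes L U (phi p i) x := by
      intro i
      rw [hm i x hx, finsum_eq_sum_of_fintype]
    rw [Finset.sum_congr rfl fun i _ => by rw [h1 i]]
    unfold hcRes
    rw [finsum_eq_sum_of_fintype, Finset.sum_congr rfl fun u _ =>
      hd2 χ _ (H379.GLB.isPRegular_mul hp hU (hLU x x.2) hxG u.2), Finset.sum_comm, Finset.sum_div]
    refine Finset.sum_congr rfl fun i _ => ?_
    rw [finsum_eq_sum_of_fintype, ← Finset.mul_sum, mul_div_assoc]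
  -- the coefficients of `g s`
  let N' : Fin r → IBr V G → ℤ := fun s i => ∑ χ, n s χ * (d χ i : ℤ)
  have hN0 : ∀ s i, i ∉ ibrUnder V B → N' s i = 0 := by
    intro s i hi
    refine Finset.sum_eq_zero fun χ _ => ?_
    by_cases h1 : χ ∈ B
    · have h2 : d χ i = 0 := by
        by_contra h3
        exact hi ⟨χ, h1, hd1 χ i h3⟩
      rw [h2, Nat.cast_zero, mul_zero]
    · rw [hn1 s χ h1, zero_mul]
  have hgs : ∀ s (x : L), IsPRegular p x → g s x = ∑ i, (N' s i : ℂ) * ∑ j, (m i j : ℂ) * phi p j x := by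
    intro s x hx
    rw [hn2 s x hx, finsum_eq_sum_of_fintype]
    rw [Finset.sum_congr rfl fun χ _ => by rw [hχ χ x hx, Finset.mul_sum]]
    rw [Finset.sum_comm]
    refine Finset.sum_congr rfl fun i _ => ?_
    show _ = ((∑ χ, n s χ * (d χ i : ℤ) : ℤ) : ℂ) * _
    push_cast
    rw [Finset.sum_mul]
    exact Finset.sum_congr rfl fun χ _ => by ring
  -- the multiplicities for reducible restrictions
  have hdiv : ∀ i ∈ ibrUnder V B, (O i).card ≠ 1 → ∀ j, p ∣ m i j := by
    intro i hiB h1 j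
    have h2 : (O i).card ∣ m i j := H379.GLB.dvd_mult hM hV N hc hi L U hU hLU hd hUN hLN i (O i) (hO i hiB) (m i)
      (hm i) (fun j hj => hC j (hBC i hiB (m i) (hm i) j hj)) j
    have h3 := H666.Clif.card_dvd_index hM hV N hc (hO i hiB)
    have h4 : N.index = p ^ a := hi
    rw [h4] at h3
    obtain ⟨k, -, hk⟩ := (Nat.dvd_prime_pow hp).1 h3
    have hk0 : k ≠ 0 := by
      rintro rfl
      exact h1 (by rw [hk, pow_zero])
    exact (dvd_pow_self p hk0).trans (hk ▸ h2)
  by_contra hlt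
  rw [not_le] at hlt
  set I := {i : IBr V G // i ∈ ibrUnder V B ∧ (O i).card = 1} with hI
  have := Fintype.ofFinite I
  rw [Nat.card_eq_fintype_card] at hlt
  obtain ⟨c, hc0, hc1⟩ := exists_kernel hp hlt (fun s i => N' s i)
  apply hc0
  have hdvd : ∀ j, (p : ℤ) ∣ ∑ i, (∑ s, c s * N' s i) * (m i j : ℤ) := by
    intro j
    refine Finset.dvd_sum fun i _ => ?_
    by_cases h1 : i ∈ ibrUnder V B
    · by_cases h2 : (O i).card = 1
      · exact (hc1 ⟨i, h1, h2⟩).mul_right _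
      · exact (Int.natCast_dvd_natCast.2 (hdiv i h1 h2 j)).mul_left _
    · rw [Finset.sum_eq_zero fun s _ => by rw [hN0 s i h1, mul_zero], zero_mul]
      exact dvd_zero _
  choose h hh using hdvd
  refine hpure c h fun x hx => ?_
  rw [finsum_eq_sum_of_fintype, Finset.mul_sum]
  have h1 : ∀ j, (p : ℂ) * ((h j : ℂ) * phi p j x) =
      ∑ i, (∑ s, (c s : ℂ) * (N' s i : ℂ)) * ((m i j : ℂ) * phi p j x) := by
    intro j
    have h2 := congrArg (fun z : ℤ => (z : ℂ)) (hh j)
    push_cast at h2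
    rw [← mul_assoc, ← h2, Finset.sum_mul]
    exact Finset.sum_congr rfl fun i _ => by ring
  rw [Finset.sum_congr rfl fun j _ => h1 j, Finset.sum_comm]
  rw [Finset.sum_congr rfl fun s _ => by rw [hgs s x hx, Finset.mul_sum], Finset.sum_comm]
  refine Finset.sum_congr rfl fun i _ => ?_
  rw [← Finset.mul_sum, Finset.sum_mul]
  exact Finset.sum_congr rfl fun s _ => by ring

end Cfsg.Agent.H166.GLB
end

-- part: H614/GLn/Pure
section
/-!
# Purity of the lattice of the truncated labelled characters of a product (P5, S4536 and S4537)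
-/

set_option autoImplicit false

open scoped ComplexConjugate

universe u

namespace Cfsg.Agent.H614.GLn.RSt

open MvPolynomial Cfsg Cfsg.Agent Cfsg.Agent.H614 Cfsg.Agent.H577.GLB.Std Cfsg.Agent.H614.GLn
open IsLocalRing Cfsg.Agent.H657 Cfsg.Agent.H699.IBrLift Cfsg.Agent.H699.EqDeg
open Cfsg.Agent.H608.BlockRank Cfsg.Agent.H112.GLB

/-! ### linear algebra -/

section lin

variable {X Y ι κ : Type*}

theorem linInd_prod {f : ι → X → ℂ} {g : κ → Y → ℂ} (hf : LinearIndependent ℂ f) (hg : LinearIndependent ℂ g) :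
    LinearIndependent ℂ (fun (ij : ι × κ) (x : X × Y) => f ij.1 x.1 * g ij.2 x.2) := by
  classical
  rw [linearIndependent_iff']
  intro s a h
  let s₁ : Finset ι := s.image Prod.fst
  let s₂ : Finset κ := s.image Prod.snd
  let b : ι × κ → ℂ := fun ij => if ij ∈ s then a ij else 0
  have hb : ∑ ij ∈ s₁ ×ˢ s₂, b ij • (fun x : X × Y => f ij.1 x.1 * g ij.2 x.2) = 0 := by
    rw [← h]
    refine (Finset.sum_subset_zero_on_sdiff (s₁ := s) ?_ ?_ ?_).symm
    · intro ij hij
      rw [Finset.mem_product]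
      exact ⟨Finset.mem_image_of_mem _ hij, Finset.mem_image_of_mem _ hij⟩
    · intro ij hij
      rw [Finset.mem_sdiff] at hij
      simp only [b, if_neg hij.2, zero_smul]
    · intro ij hij
      simp only [b, if_pos hij]
  have h1 : ∀ y : Y, ∀ i ∈ s₁, ∑ j ∈ s₂, b (i, j) * g j y = 0 := by
    intro y
    refine linearIndependent_iff'.1 hf s₁ (fun i => ∑ j ∈ s₂, b (i, j) * g j y) ?_
    funext x
    have h2 := congrFun hb (x, y)
    rw [Finset.sum_product, Finset.sum_apply] at h2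
    rw [Finset.sum_apply, Pi.zero_apply]
    rw [Pi.zero_apply] at h2
    rw [← h2]
    refine Finset.sum_congr rfl fun i _ => ?_
    rw [Pi.smul_apply, smul_eq_mul, Finset.sum_apply, Finset.sum_mul]
    refine Finset.sum_congr rfl fun j _ => ?_
    rw [Pi.smul_apply, smul_eq_mul]
    ring
  intro ij hij
  have h3 : ∀ j ∈ s₂, b (ij.1, j) = 0 := by
    refine linearIndependent_iff'.1 hg s₂ (fun j => b (ij.1, j)) ?_
    funext y
    rw [Finset.sum_apply, Pi.zero_apply, ← h1 y ij.1 (Finset.mem_image_of_mem _ hij)]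
    refine Finset.sum_congr rfl fun j _ => ?_
    rw [Pi.smul_apply, smul_eq_mul]
  have h4 := h3 ij.2 (Finset.mem_image_of_mem _ hij)
  simp only [b, Prod.mk.eta, if_pos hij] at h4
  exact h4

/-- coefficients of a linearly independent family are determined: divisibility -/
theorem dvd_coeff {W : Type*} [AddCommGroup W] [Module ℂ W] {ι : Type*} {w : ι → W} (hw : LinearIndependent ℂ w)
    {p : ℕ} {v : W} (hv : v ∈ Submodule.span ℤ (Set.range w)) {r : ℕ} {s : Fin r → ι} (hs : Function.Injective s)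
    {c : Fin r → ℤ} (h : ∑ i, (c i : ℂ) • w (s i) = (p : ℂ) • v) (i : Fin r) : (p : ℤ) ∣ c i := by
  classical
  obtain ⟨a, ha⟩ := (Finsupp.mem_span_range_iff_exists_finsupp).1 hv
  have hwZ : LinearIndependent ℤ w := hw.restrict_scalars' ℤ
  have h1 : Finsupp.linearCombination ℤ w ((∑ j, Finsupp.single (s j) (c j)) - (p : ℤ) • a) = 0 := by
    rw [map_sub, map_smul, map_sum]
    simp only [Finsupp.linearCombination_single]
    rw [Finsupp.linearCombination_apply, ha]
    have h2 : ∑ j, c j • w (s j) = ∑ j, (c j : ℂ) • w (s j) :=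
      Finset.sum_congr rfl fun j _ => (Int.cast_smul_eq_zsmul ℂ _ _).symm
    rw [h2, h, natCast_zsmul, Nat.cast_smul_eq_nsmul, sub_self]
  have h3 := (linearIndependent_iff.1 hwZ) _ h1
  rw [sub_eq_zero] at h3
  have h4 := DFunLike.congr_fun h3 (s i)
  rw [Finsupp.finsetSum_apply, Finset.sum_eq_single i] at h4
  · rw [Finsupp.single_eq_same, Finsupp.smul_apply, smul_eq_mul] at h4
    exact ⟨_, h4⟩
  · intro j _ hj
    rw [Finsupp.single_apply, if_neg (fun h5 => hj (hs h5))]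
  · intro h5; exact absurd (Finset.mem_univ i) h5

end lin

/-! ### Brauer characters -/

section br

variable {V : ValuationSubring ℂ} {G : Type u} [Group G] [Finite G] {𝔐 : Ideal AlgInt} {p : ℕ}

/-- a Brauer character is an integral combination of restrictions of irreducible characters -/
theorem phi_mem_span_pReg (hM : IsPModular p 𝔐) (hV : Above 𝔐 V) (i : IBr V G) :
    phi p i ∈ Submodule.span ℤ (Set.range fun χ : IrrCharacter G => pReg p (χ : G → ℂ)) := by
  classical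
  have : Fact p.Prime := ⟨hM.1⟩
  have : CharP (ResidueField V) p := hV.charP hM
  have := Characters.Core.finite_irr (G := G)
  have := Fintype.ofFinite (IrrCharacter G)
  obtain ⟨N, k, m, hn, hmp, h1, h0⟩ :=
    Characters.Brauer.exists_exponent (Nat.card G) p Nat.card_pos.ne' hM.1
  obtain ⟨n, hn'⟩ := Characters.Core.isGeneralizedCharacter_iff.1
    (isGeneralizedCharacter_bc hM hV hn hmp h1 h0 i.rep)
  have hphi : phi p i = ∑ χ : IrrCharacter G, (n χ) • pReg p (χ : G → ℂ) := by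
    funext g
    rw [Finset.sum_apply]
    by_cases hg : IsPRegular p g
    · have h2 : g ^ N = g := by
        have h3 : orderOf g ∣ m := by
          have h4 : orderOf g ∣ p ^ k * m := hn ▸ orderOf_dvd_natCard g
          exact (Nat.Coprime.pow_right k
            ((Nat.Prime.coprime_iff_not_dvd hM.1).2 hg).symm).dvd_of_dvd_mul_left h4
        have h5 := (pow_eq_pow_iff_modEq (x := g)).2 (h1.of_dvd h3)
        rwa [pow_one] at h5
      have h3 : bc p i.rep (g ^ N) = _ := congrFun hn' g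
      rw [h2, Finset.sum_apply] at h3
      rw [phi_of i hg, h3]
      refine Finset.sum_congr rfl fun χ _ => ?_
      rw [Pi.smul_apply, Pi.smul_apply, pReg_of hg]
    · rw [phi_of_not i hg]
      refine (Finset.sum_eq_zero fun χ _ => ?_).symm
      rw [Pi.smul_apply, pReg_of_not hg, smul_zero]
  rw [hphi]
  exact Submodule.sum_mem _ fun χ _ => Submodule.smul_mem _ _ (Submodule.subset_span ⟨χ, rfl⟩)

variable {Q : ℤ} {M : ℕ} [NeZero M] {n m : ℕ}

/-- the truncated characters with labels of order prime to `p` -/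
noncomputable def uF (R : Rz Q M p n G) (m : ℕ) (t : {t : LabZ Q M m n // POnly M p t.t}) : G → ℂ :=
  R.om (tauP Q M p (SchP Q M t.1.t))

theorem uF_eq (R : Rz Q M p n G) (t : {t : LabZ Q M m n // POnly M p t.t}) :
    uF R m t = pReg p (R.om (SchP Q M t.1.t)) := R.om_tauP t.1

theorem linInd_uF (hp : p.Prime) (R : Rz Q M p n G) (m : ℕ) : LinearIndependent ℂ (uF R m) := by
  have h1 := H505.S4536.DC.tau_linearIndependent hp R.unit m n
  have h2 : uF R m = R.om ∘ fun t : {t : LabZ Q M m n // POnly M p t.t} => tauP Q M p (SchP Q M t.1.t) := rfl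
  rw [h2]
  refine h1.map_injOn R.om ?_
  refine (Rz.om_injOn R).mono ?_
  rw [SetLike.coe_subset_coe, Submodule.span_le]
  rintro _ ⟨t, rfl⟩
  exact tauP_mem_hom p (schP_mem_hom R.unit t.1)

/-- the restrictions of the irreducible characters are integral combinations of the truncated characters -/
theorem pReg_mem_span_uF (hp : p.Prime) (hmn : n ≤ m) (R : Rz Q M p n G) (hb : R.Bij m) (χ : IrrCharacter G) :
    pReg p (χ : G → ℂ) ∈ Submodule.span ℤ (Set.range (uF R m)) := by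
  obtain ⟨t, ⟨s, hs⟩, -⟩ := hb.1 χ
  have h1 : R.om (tauP Q M p (SchP Q M t.t)) ∈ Submodule.span ℤ (Set.range (uF R m)) := by
    have h2 := H505.S4536.DC.tau_mem_span (p := p) hp R.unit hmn t
    have h3 : R.om (tauP Q M p (SchP Q M t.t)) ∈ (Submodule.span ℤ {x : RS M | ∃ t' : LabZ Q M m n,
        POnly M p t'.t ∧ SameFam Q M p t.t t'.t ∧ x = tauP Q M p (SchP Q M t'.t)}).map
          (R.om.restrictScalars ℤ) := ⟨_, h2, rfl⟩
    rw [Submodule.map_span] at h3
    refine Submodule.span_mono ?_ h3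
    rintro _ ⟨_, ⟨t', ht', -, rfl⟩, rfl⟩
    exact ⟨⟨t', ht'⟩, rfl⟩
  rw [R.om_tauP, hs] at h1
  have h2 : ((s : ℤ)) • pReg p ((((s : ℤ) : ℂ)) • (χ : G → ℂ)) = pReg p (χ : G → ℂ) := by
    rw [map_smul, ← Int.cast_smul_eq_zsmul ℂ, smul_smul]
    rcases Int.units_eq_one_or s with rfl | rfl <;> simp
  rw [← h2]
  exact Submodule.smul_mem _ _ h1

end br

/-! ### the product -/

section prod

variable {V : ValuationSubring ℂ} {𝔐 : Ideal AlgInt} {p : ℕ} {Q : ℤ} {M : ℕ} [NeZero M] {n₁ n₂ m : ℕ}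
  {G₁ G₂ L : Type u} [Group G₁] [Finite G₁] [Group G₂] [Finite G₂] [Group L] [Finite L]

theorem isPRegular_prod (hp : p.Prime) (x : G₁ × G₂) : IsPRegular p x ↔ IsPRegular p x.1 ∧ IsPRegular p x.2 := by
  unfold IsPRegular
  rw [Prod.orderOf, hp.dvd_lcm, not_or]

/-- **Purity.** -/
theorem pure_prod (hM : IsPModular p 𝔐) (hV : Above 𝔐 V) (e : G₁ × G₂ ≃* L) (R₁ : Rz Q M p n₁ G₁)
    (R₂ : Rz Q M p n₂ G₂) (h₁ : n₁ ≤ m) (h₂ : n₂ ≤ m) (hb₁ : R₁.Bij m) (hb₂ : R₂.Bij m) {r : ℕ}
    (t : Fin r → LabZ Q M m n₁) (hti : Function.Injective t) (ht : ∀ s, POnly M p (t s).t)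
    (t' : LabZ Q M m n₂) (ht' : POnly M p t'.t) (c : Fin r → ℤ) (h : IBr V L → ℤ)
    (H : ∀ x : L, IsPRegular p x →
      ∑ s, (c s : ℂ) * (R₁.om (SchP Q M (t s).t) (e.symm x).1 * R₂.om (SchP Q M t'.t) (e.symm x).2) =
        (p : ℂ) * ∑ᶠ j, (h j : ℂ) * phi p j x) (s : Fin r) : (p : ℤ) ∣ c s := by
  classical
  have hp := hM.1
  have : Fact p.Prime := ⟨hp⟩
  have := Fintype.ofFinite (IBr V L)
  -- the linearly independent family
  let w : ({t : LabZ Q M m n₁ // POnly M p t.t} × {t : LabZ Q M m n₂ // POnly M p t.t}) → (G₁ × G₂ → ℂ) :=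
    fun ij x => uF R₁ m ij.1 x.1 * uF R₂ m ij.2 x.2
  have hw : LinearIndependent ℂ w := linInd_prod (linInd_uF hp R₁ m) (linInd_uF hp R₂ m)
  have hreg : ∀ x : G₁ × G₂, IsPRegular p (e x) ↔ IsPRegular p x.1 ∧ IsPRegular p x.2 := by
    intro x
    rw [← isPRegular_prod hp]
    unfold IsPRegular
    rw [MulEquiv.orderOf_eq]
  -- products of two functions
  have hprod : ∀ (a : G₁ → ℂ) (b : G₂ → ℂ), a ∈ Submodule.span ℤ (Set.range (uF R₁ m)) →
      b ∈ Submodule.span ℤ (Set.range (uF R₂ m)) →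
      (fun x : G₁ × G₂ => a x.1 * b x.2) ∈ Submodule.span ℤ (Set.range w) := by
    intro a b ha hb
    refine Submodule.span_induction (p := fun a _ => (fun x : G₁ × G₂ => a x.1 * b x.2) ∈
      Submodule.span ℤ (Set.range w)) ?_ ?_ ?_ ?_ ha
    · rintro _ ⟨i, rfl⟩
      refine Submodule.span_induction (p := fun b _ => (fun x : G₁ × G₂ => uF R₁ m i x.1 * b x.2) ∈
        Submodule.span ℤ (Set.range w)) ?_ ?_ ?_ ?_ hb
      · rintro _ ⟨j, rfl⟩
        exact Submodule.subset_span ⟨(i, j), rfl⟩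
      · convert Submodule.zero_mem (Submodule.span ℤ (Set.range w)) using 1
        funext x; simp
      · intro b b' _ _ hb hb'
        convert Submodule.add_mem _ hb hb' using 1
        funext x; simp [mul_add]
      · intro k b _ hb
        convert Submodule.smul_mem _ k hb using 1
        funext x; simp [zsmul_eq_mul]; ring
    · convert Submodule.zero_mem (Submodule.span ℤ (Set.range w)) using 1
      funext x; simp
    · intro a a' _ _ ha ha'
      convert Submodule.add_mem _ ha ha' using 1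
      funext x; simp [add_mul]
    · intro k a _ ha
      convert Submodule.smul_mem _ k ha using 1
      funext x; simp [zsmul_eq_mul]; ring
  -- restrictions of the irreducible characters
  have hirr : ∀ ψ : IrrCharacter L, (fun x : G₁ × G₂ => pReg p (ψ : L → ℂ) (e x)) ∈
      Submodule.span ℤ (Set.range w) := by
    intro ψ
    have h3 : IsIrrCharacter (G₁ × G₂) (fun x => (ψ : L → ℂ) (e x)) :=
      Characters.Core.isIrr_comp (e : G₁ × G₂ →* L) e.surjective ψ.2
    obtain ⟨a, b, ha, hb, hab⟩ := (Cfsg.Agent.S0188.result _).1 h3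
    have h4 := hprod _ _ (pReg_mem_span_uF hp h₁ R₁ hb₁ ⟨a, ha⟩) (pReg_mem_span_uF hp h₂ R₂ hb₂ ⟨b, hb⟩)
    convert h4 using 1
    funext x
    have h5 : (ψ : L → ℂ) (e x) = a x.1 * b x.2 := congrFun hab x
    show pReg p (ψ : L → ℂ) (e x) = pReg p a x.1 * pReg p b x.2
    by_cases hx : IsPRegular p (e x)
    · have h6 := (hreg x).1 hx
      rw [pReg_of hx, pReg_of h6.1, pReg_of h6.2, h5]
    · rw [pReg_of_not hx]
      by_cases hx1 : IsPRegular p x.1
      · have hx2 : ¬ IsPRegular p x.2 := fun hx2 => hx ((hreg x).2 ⟨hx1, hx2⟩)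
        rw [pReg_of_not hx2, mul_zero]
      · rw [pReg_of_not hx1, zero_mul]
  -- the Brauer characters
  have hphi : ∀ j : IBr V L, (fun x : G₁ × G₂ => phi p j (e x)) ∈ Submodule.span ℤ (Set.range w) := by
    intro j
    refine Submodule.span_induction (p := fun a _ => (fun x : G₁ × G₂ => a (e x)) ∈
      Submodule.span ℤ (Set.range w)) ?_ ?_ ?_ ?_ (phi_mem_span_pReg hM hV j)
    · rintro _ ⟨ψ, rfl⟩
      exact hirr ψ
    · exact Submodule.zero_mem (Submodule.span ℤ (Set.range w))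
    · intro a a' _ _ ha ha'
      exact Submodule.add_mem _ ha ha'
    · intro k a _ ha
      exact Submodule.smul_mem _ k ha
  let v : G₁ × G₂ → ℂ := fun x => ∑ j, (h j : ℂ) * phi p j (e x)
  have hv : v ∈ Submodule.span ℤ (Set.range w) := by
    have h3 : v = ∑ j, h j • (fun x : G₁ × G₂ => phi p j (e x)) := by
      funext x
      rw [Finset.sum_apply]
      refine Finset.sum_congr rfl fun j _ => ?_
      rw [Pi.smul_apply, zsmul_eq_mul]
    rw [h3]
    exact Submodule.sum_mem _ fun j _ => Submodule.smul_mem _ _ (hphi j)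
  refine dvd_coeff hw hv (s := fun i => (⟨t i, ht i⟩, ⟨t', ht'⟩)) (fun i j hij => hti ?_) (c := c) ?_ s
  · have h3 := congrArg (fun z => z.1.1) hij
    exact h3
  · funext x
    rw [Finset.sum_apply, Pi.smul_apply, smul_eq_mul]
    by_cases hx : IsPRegular p (e x)
    · have h6 := (hreg x).1 hx
      have h7 := H (e x) hx
      rw [e.symm_apply_apply, finsum_eq_sum_of_fintype] at h7
      rw [← h7]
      refine Finset.sum_congr rfl fun i _ => ?_
      rw [Pi.smul_apply, smul_eq_mul]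
      show _ * (uF R₁ m ⟨t i, ht i⟩ x.1 * uF R₂ m ⟨t', ht'⟩ x.2) = _
      rw [uF_eq, uF_eq, pReg_of h6.1, pReg_of h6.2]
    · have h7 : v x = 0 := Finset.sum_eq_zero fun j _ => by rw [phi_of_not j hx, mul_zero]
      rw [h7, mul_zero]
      refine Finset.sum_eq_zero fun i _ => ?_
      rw [Pi.smul_apply, smul_eq_mul]
      show _ * (uF R₁ m ⟨t i, ht i⟩ x.1 * uF R₂ m ⟨t', ht'⟩ x.2) = _
      rw [uF_eq, uF_eq]
      by_cases hx1 : IsPRegular p x.1
      · have hx2 : ¬ IsPRegular p x.2 := fun hx2 => hx ((hreg x).2 ⟨hx1, hx2⟩)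
        rw [pReg_of_not hx2, mul_zero, mul_zero]
      · rw [pReg_of_not hx1, zero_mul, mul_zero]

end prod

end Cfsg.Agent.H614.GLn.RSt
end

-- part: H139/P5GL/Main
section
/-!
# S4536, P5GL: at least `p(w - 1)` Brauer characters of the family `Δ^w` stay irreducible
-/

set_option autoImplicit false
set_option linter.unusedSectionVars false

open Cfsg
open scoped MatrixGroups TensorProduct

namespace Cfsg.Agent.H139.P5GL

open Cfsg.Agent.H577.GLB Cfsg.Agent.H577.GLB.Std Cfsg.Agent.H577.GLB.Real Cfsg.Agent.H614.GLn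
open Cfsg.Agent.H657 Cfsg.Agent.H624.Sl Cfsg.Agent.H112.GLB
open Cfsg.Agent.H666.Clif (pKer)
open Cfsg.Agent.H608.BlockRank (IsUnion)
open Cfsg.Agent.H466.Sl (onto coe_onto)

universe u

variable {F : Type u} [Field F] [Finite F] {K : Type u} [Field K] [Algebra F K] {θ : K →*₀ ℂ} {N M : ℕ} [NeZero M]
  {p : ℕ} {𝔐 : Ideal AlgInt} {V : ValuationSubring ℂ}

theorem pOnly_of_onlyOn {Q : ℤ} {m n : ℕ} {δ : ZMod M} (hδ : PReg M p δ)
    {t : LabZ Q M m n} (ht : OnlyOn Q M δ t.t) : POnly M p t.t := by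
  intro c hc
  by_contra h
  obtain ⟨j, rfl⟩ := ht c (Nat.pos_of_ne_zero h)
  apply hc
  refine Nat.Coprime.coprime_dvd_left ?_ hδ
  apply addOrderOf_dvd_of_nsmul_eq_zero
  rw [← mul_smul_comm, addOrderOf_nsmul_eq_zero, mul_zero]

/-- at least `p(w-1)` of the Brauer characters in the family `Δ^w` stay irreducible on the kernel of the
`p`-characters -/
theorem card_irred_GL (hctx : Ctx F θ N M) (hpF : p ≠ ringChar F) (h𝔐 : IsPModular p 𝔐) (hV : Above 𝔐 V)
    (hq : ((Nat.card F : ℕ) : ZMod p) = 1) {m n : ℕ} (hn : n ≤ N) (hm : n ≤ m) (t₀ : LabZ (Nat.card F) M m n)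
    (h₀ : POnly M p t₀.t) (δ₀ : ZMod M) (h₁ : OnlyOn (Nat.card F) M δ₀ t₀.t) (hw : 2 ≤ Std.bsz (t₀.t δ₀))
    (O : IBr V (GL (Fin n) F) → Finset (IBr V (pKer (slS F n) p)))
    (hO : ∀ i ∈ ibrUnder V (famSet θ p t₀), IsRes p (pKer (slS F n) p) i (O i)) :
    Fintype.card (Nat.Partition (Std.bsz (t₀.t δ₀) - 1)) ≤
      Nat.card {i : IBr V (GL (Fin n) F) // i ∈ ibrUnder V (famSet θ p t₀) ∧ (O i).card = 1} := by
  classical
  have hp := h𝔐.1
  have : Fact p.Prime := ⟨hp⟩
  have hMp := Cfsg.Agent.Blocks.Local.isPrime_of_isPModular h𝔐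
  have hQ : IsUnit (((Nat.card F : ℕ) : ℤ) : ZMod M) := (GLrz hctx hp hpF hn).unit
  have hQp : (((Nat.card F : ℕ) : ℤ) : ZMod p) = 1 := by rw [Int.cast_natCast, hq]
  have hδ : PReg M p δ₀ := by
    by_contra h
    have := h₀ δ₀ h
    omega
  have hsize := H76.GLB.size_onlyOn hQ t₀ h₁
  obtain ⟨w, hw'⟩ : ∃ w, Std.bsz (t₀.t δ₀) = w + 1 := ⟨Std.bsz (t₀.t δ₀) - 1, by omega⟩
  rw [hw'] at hsize hw ⊢
  rw [Nat.add_sub_cancel]
  subst hsize
  have hd : 0 < perZ (Nat.card F) M δ₀ := H614.GLn.RSt.perZ_pos hQ δ₀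
  have hwm : w ≤ m := by nlinarith
  have hn0 : 0 < perZ (Nat.card F) M δ₀ * (w + 1) := Nat.mul_pos hd (Nat.succ_pos w)
  have ha : perZ (Nat.card F) M δ₀ * w ≤ perZ (Nat.card F) M δ₀ * (w + 1) := Nat.mul_le_mul_left _ (Nat.le_succ w)
  have hb : perZ (Nat.card F) M δ₀ ≤ perZ (Nat.card F) M δ₀ * (w + 1) := Nat.le_mul_of_pos_right _ (Nat.succ_pos w)
  -- the labels
  let e : ((Fin (perZ (Nat.card F) M δ₀ * w) → F) × (Fin (perZ (Nat.card F) M δ₀) → F)) ≃ₗ[F]
      (Fin (perZ (Nat.card F) M δ₀ * (w + 1)) → F) :=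
    LinearEquiv.ofFinrankEq _ _ (by simp [mul_add])
  obtain ⟨t₂, ht₂, ho₂, hb₂⟩ := H76.GLB.exists_cuspLab (Q := Nat.card F) hQ (m := m) (by omega) δ₀
  have hXfin : Finite (H76.GLB.XX m w) := Nat.finite_of_card_ne_zero (by
    rw [H76.GLB.card_XX hwm]; exact Fintype.card_ne_zero)
  have hcard : Nat.card (H76.GLB.XX m w) = Fintype.card (Nat.Partition w) := H76.GLB.card_XX hwm
  let E : Fin (Fintype.card (Nat.Partition w)) ≃ H76.GLB.XX m w :=
    (finCongr hcard.symm).trans (Finite.equivFin (H76.GLB.XX m w)).symm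
  let t : Fin (Fintype.card (Nat.Partition w)) → LabZ (Nat.card F) M m (perZ (Nat.card F) M δ₀ * w) := fun s =>
    H76.GLB.mkL hQ δ₀ (E s).1 (E s).2.1 (E s).2.2
  have hto : ∀ s, OnlyOn (Nat.card F) M δ₀ (t s).t := fun s => H76.GLB.mkL_onlyOn hQ δ₀ (E s).1 (E s).2.1 (E s).2.2
  have htp : ∀ s, POnly M p (t s).t := fun s => pOnly_of_onlyOn hδ (hto s)
  have htinj : Function.Injective t := by
    intro s s' hss
    apply E.injective
    apply Subtype.ext
    have h1 := congrArg (fun l : LabZ (Nat.card F) M m (perZ (Nat.card F) M δ₀ * w) => l.t δ₀) hss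
    simpa only [t, H76.GLB.mkL_self] using h1
  obtain ⟨s₀⟩ : Nonempty (Fin (Fintype.card (Nat.Partition w))) := ⟨⟨0, Fintype.card_pos⟩⟩
  have hlab := isLab_bij hctx hn hm
  have hinj := Cfsg.Agent.H901.Sl.jj_injective (K := F) e
  set L := (jj (K := F) e).range with hL
  let φ := onto (jj (K := F) e) hinj L rfl
  have hcyc : IsCyclic (GL (Fin (perZ (Nat.card F) M δ₀ * (w + 1))) F ⧸ slS F _) :=
    H666.Clif.isCyclic_quot_SK hn0
  have hle := H666.Clif.le_pKer (slS F (perZ (Nat.card F) M δ₀ * (w + 1))) p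
  obtain ⟨lp, lq, k, k', -, -, hlp, -, hK, -, -⟩ := H666.Clif.exists_split
    (slS F (perZ (Nat.card F) M δ₀ * (w + 1))) hcyc hp
  have hi : Nat.card (GL (Fin (perZ (Nat.card F) M δ₀ * (w + 1))) F ⧸
      pKer (slS F (perZ (Nat.card F) M δ₀ * (w + 1))) p) = p ^ k := by
    have : (pKer (slS F (perZ (Nat.card F) M δ₀ * (w + 1))) p).index = p ^ k := by
      rw [hK, H666.Clif.index_ker, hlp]
    exact this
  have hfam : ∀ t : LabZ (Nat.card F) M m (perZ (Nat.card F) M δ₀ * (w + 1)), OnlyOn (Nat.card F) M δ₀ t.t →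
      ∃ χ ∈ famSet θ p t₀, IsLab θ M m _ χ t := by
    intro t ht
    obtain ⟨χ, hχ, -⟩ := hlab.2 t
    refine ⟨χ, ⟨t, hχ, ?_⟩, hχ⟩
    rw [H76.GLB.sameFam_iff hp hQp h₀ (pOnly_of_onlyOn hδ ht)]
    intro c
    by_cases hc : SameZ (Nat.card F) M δ₀ c
    · rw [H76.GLB.orb_same t₀ hc, H76.GLB.orb_same t hc, hw']
      exact Nat.eq_of_mul_eq_mul_left hd (H76.GLB.size_onlyOn hQ t ht)
    · have h2 : Std.bsz (t₀.t c) = 0 := by
        by_contra h
        exact hc (h₁ c (Nat.pos_of_ne_zero h))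
      have h3 : Std.bsz (t.t c) = 0 := by
        by_contra h
        exact hc (ht c (Nat.pos_of_ne_zero h))
      rw [h2, h3]
  refine H166.GLB.le_card_irred h𝔐 hV (pKer (slS F _) p) (H666.Clif.isCyclic_quot hle hcyc) hi L (Ur e)
    (card_Ur e hp hpF) (conj_mem_Ur e) (disjoint_Ur e) ((Ur_le e).trans hle) (sup_slS e hd hle)
    (B := famSet θ p t₀) ?_ O hO
    (ibrUnder V (prodBlk L (jj (K := F) e) (famSet θ p (t s₀)) (famSet θ p t₂)))
    (fun j hj => H166.GLB.hC_prod hctx hpF h𝔐 hV hq hn hm hd e (t s₀) t₂ (pOnly_of_onlyOn hδ ho₂) δ₀ hb₂ hj)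
    (fun i hi μ hμ j hj => H614.GLn.RSt.hBC_prod hctx hpF h𝔐 hV hn hm e (Ur e) (card_Ur e hp hpF) (conj_mem_Ur e)
      (fun x A B h hh => hcRes_Om e θ M x A B h hh) t₀ h₀ δ₀ h₁ (t s₀) (htp s₀) (hto s₀) t₂
      (pOnly_of_onlyOn hδ ho₂) ho₂ hq hi μ hμ j hj)
    (r := Fintype.card (Nat.Partition w))
    (fun s x => (GLrz hctx hp hpF (ha.trans hn)).om (SchP (Nat.card F) M (t s).t) (φ.symm x).1 *
      (GLrz hctx hp hpF (hb.trans hn)).om (SchP (Nat.card F) M t₂.t) (φ.symm x).2) ?_ ?_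
  · exact isUnion_famSet_lab hctx hpF h𝔐 hn hm hlab t₀
  · intro s
    obtain ⟨c, hc, hc'⟩ := exists_comb (θ := θ) hQ δ₀ e hfam
      (H76.GLB.mem_span_pderiv (Q := Nat.card F) hQ δ₀ hm (t s) (hto s))
    refine ⟨c, hc, fun x _ => ?_⟩
    obtain ⟨⟨A, C⟩, rfl⟩ := φ.surjective x
    rw [← hc' A C (φ (A, C)) rfl, φ.symm_apply_apply, ht₂, rv, if_pos ⟨hd, (H614.GLn.RSt.torZ_iff _ δ₀).2 dvd_rfl⟩]
    rfl
  · intro c h H s
    exact H614.GLn.RSt.pure_prod h𝔐 hV φ (GLrz hctx hp hpF (ha.trans hn)) (GLrz hctx hp hpF (hb.trans hn))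
      (ha.trans hm) (hb.trans hm) (isLab_bij hctx (ha.trans hn) (ha.trans hm))
      (isLab_bij hctx (hb.trans hn) (hb.trans hm)) t htinj htp t₂ (pOnly_of_onlyOn hδ ho₂) c h H s

end Cfsg.Agent.H139.P5GL
end
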